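import Cfsg.Agent.H35.S4Defs

/-!
Project S4, piece PRE2: transport of the coordinates along the Weyl group.
-/

set_option autoImplicit false

namespace Cfsg.Agent.H5.S4P

open Cfsg Cfsg.Agent.H63 Cfsg.Agent.H63.SL Cfsg.Agent.H35.S4 Subgroup
open scoped commutatorElement

universe u v

/-- the base root of the orbit -/
def bs (i : ZMod 8) : ZMod 8 := if sh i then 1 else 4

/-- the rotation from the base root -/
def kk (i : ZMod 8) : ZMod 8 := ((i - bs i).val / 2 : ℕ)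

theorem bs_kk : ∀ i, bs i + 2 * kk i = i := by decide

theorem sh_ref : ∀ k i : ZMod 8, sh (2 * k + 4 - i) ↔ sh i := by decide

theorem ref_id : ∀ k i r : ZMod 8,
    2 * (bs i + 2) + 4 - r + 2 * kk (2 * k + 4 - i) = 2 * k + 4 - (r + 2 * kk i) := by decide

section

variable {F : Type v} [Field F] {G : Type u} [Group G] {L : Subgroup G} {x : ZMod 8 → F → G} {t : G}

/-- elements of `L` with the same action on the root elements are equal -/
theorem eq_of_act (kb : KB L x t) {g g' : G} (hg : g ∈ L) (hg' : g' ∈ L)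
    (h : ∀ i a, g * x i a * g⁻¹ = g' * x i a * g'⁻¹) : g = g' := by
  have := kb.ext (g'⁻¹ * g) (mul_mem (inv_mem hg') hg) fun i a => by
    show _ * _ = _ * _
    calc g'⁻¹ * g * x i a = g'⁻¹ * (g * x i a * g⁻¹) * g := by group
      _ = _ := by rw [h]; group
  exact (inv_mul_eq_one.1 this).symm

end

theorem pre2 : Pre2Stmt.{u, v} := by
  intro F _ _ G _ _ L x t hC A _ j σ y y' m Xh hX hP
  have kb := hC.kb
  have kp := hC.kp
  choose w wL wx wh _ using kb.rot
  obtain ⟨Y, hY⟩ : ∃ Y : ZMod 8 → A → G, Y = fun i => if sh i then y else y' := ⟨_, rfl⟩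
  have Ys : ∀ i, sh i → Y i = y ∧ bs i = 1 := fun i hi => by simp [hY, bs, hi]
  have Yl : ∀ i, ¬ sh i → Y i = y' ∧ bs i = 4 := fun i hi => by simp [hY, bs, hi]
  have Yadd : ∀ i a b, Y i (a + b) = Y i a * Y i b := fun i a b => by
    by_cases hi : sh i
    · rw [(Ys i hi).1]; exact (hP.add a b).1
    · rw [(Yl i hi).1]; exact (hP.add a b).2
  have Yinj : ∀ i a, Y i a = 1 → a = 0 := fun i a => by
    by_cases hi : sh i
    · rw [(Ys i hi).1]; exact (hP.inj a).1
    · rw [(Yl i hi).1]; exact (hP.inj a).2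
  have Yres : ∀ i a, Y i (j a) = x (bs i) a := fun i a => by
    by_cases hi : sh i
    · rw [(Ys i hi).1, (Ys i hi).2]; exact (hP.res a).1
    · rw [(Yl i hi).1, (Yl i hi).2]; exact (hP.res a).2
  have Yconj : ∀ i a, t * Y i a * t⁻¹ = Y i (σ a) := fun i a => by
    by_cases hi : sh i
    · rw [(Ys i hi).1]; exact (hP.conj a).1
    · rw [(Yl i hi).1]; exact (hP.conj a).2
  have Ytor : ∀ h ∈ L, ∀ α β, Tor x h α β → ∀ i a,
      h * Y i a * h⁻¹ = Y i (j (wt α β (bs i)) * a) := fun h hh α β hT i a => by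
    by_cases hi : sh i
    · rw [(Ys i hi).1, (Ys i hi).2]; exact (hP.tor h hh α β hT a).1
    · rw [(Yl i hi).1, (Yl i hi).2]; exact (hP.tor h hh α β hT a).2
  have Yhat : ∀ i p, p ∈ HatS L x t 0 (bs i) ↔ ∃ a, p = Y i a := fun i p => by
    by_cases hi : sh i
    · rw [(Ys i hi).1, (Ys i hi).2]; exact (hP.hat p).1
    · rw [(Yl i hi).1, (Yl i hi).2]; exact (hP.hat p).2
  have nfix : ∀ i, ∀ p ∈ Xh i, Commute (n2 x (i + 2)) p := fun i p hp => by
    have h1 : Commute (x (i + 2) 1) p := mem_centralizer_iff.1 (hX.c2 i hp) _ (hX.le _ _)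
    have h2 : Commute (x (i + 2 + 4) 1) p := by
      have := mem_centralizer_iff.1 (hX.c2 (i + 2 + 4) (hX.le _ 1)) p
        (by rwa [(by decide : ∀ i : ZMod 8, i + 2 + 4 + 2 = i)])
      exact this.symm
    exact (h1.mul_left h2).mul_left h1
  obtain ⟨z, hz⟩ : ∃ z : ZMod 8 → A → G, ∀ i a, z i a = w (kk i) * Y i a * (w (kk i))⁻¹ :=
    ⟨_, fun _ _ => rfl⟩
  have hat : ∀ i p, p ∈ HatS L x t 0 i ↔ ∃ a, p = z i a := fun i p => by
    have := wh (kk i) 0 (bs i) ((w (kk i))⁻¹ * p * w (kk i))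
    rw [bs_kk, show w (kk i) * ((w (kk i))⁻¹ * p * w (kk i)) * (w (kk i))⁻¹ = p by group,
      Yhat] at this
    rw [← this]
    refine exists_congr fun a => ?_
    rw [hz]
    constructor
    · intro e; rw [← e]; group
    · intro e; rw [e]; group
  have zX : ∀ i a, z i a ∈ Xh i := fun i a => (hX.mem i _).2 ((hat i _).2 ⟨a, rfl⟩)
  have wey : ∀ k i a, n2 x k * z i a * (n2 x k)⁻¹ = z (2 * k + 4 - i) a := fun k i a => by
    have e : n2 x k * w (kk i) = w (kk (2 * k + 4 - i)) * n2 x (bs i + 2) := by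
      refine eq_of_act kb (mul_mem (kb.nL _) (wL _)) (mul_mem (wL _) (kb.nL _)) fun r c => ?_
      calc n2 x k * w (kk i) * x r c * (n2 x k * w (kk i))⁻¹
          = n2 x k * (w (kk i) * x r c * (w (kk i))⁻¹) * (n2 x k)⁻¹ := by group
        _ = w (kk (2 * k + 4 - i)) * (n2 x (bs i + 2) * x r c * (n2 x (bs i + 2))⁻¹) *
            (w (kk (2 * k + 4 - i)))⁻¹ := by rw [wx, kp.nn, kp.nn, wx, ref_id]
        _ = _ := by group
    have eY : Y (2 * k + 4 - i) = Y i := by simp only [hY, sh_ref]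
    have c := (nfix (bs i) (Y i a) ((hX.mem _ _).2 ((Yhat i _).2 ⟨a, rfl⟩))).eq
    rw [hz, hz, eY]
    calc n2 x k * (w (kk i) * Y i a * (w (kk i))⁻¹) * (n2 x k)⁻¹
        = n2 x k * w (kk i) * Y i a * (n2 x k * w (kk i))⁻¹ := by group
      _ = w (kk (2 * k + 4 - i)) * (n2 x (bs i + 2) * Y i a) * (n2 x (bs i + 2))⁻¹ *
            (w (kk (2 * k + 4 - i)))⁻¹ := by rw [e]; group
      _ = _ := by rw [c]; group
  have w0 : w 0 = 1 := eq_of_act kb (wL 0) (one_mem _) fun r c => by rw [wx]; simp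
  have z1 : ∀ a, z 1 a = y a := fun a => by
    rw [hz, show kk 1 = 0 by decide, w0, (Ys 1 (by decide)).1]; simp
  have z4 : ∀ a, z 4 a = y' a := fun a => by
    rw [hz, show kk 4 = 0 by decide, w0, (Yl 4 (by decide)).1]; simp
  refine ⟨z, hP.quad, fun i a b => ?_, fun i a e => Yinj i a ?_, fun i a b => ?_, fun i a b => ?_,
    fun a b => ?_, hP.madd, hP.madd', hP.msc, hP.mone, fun i a => ?_, fun i a => ?_, wey,
    fun h hh α β hT i a => ?_, hat, fun i k hk c o p hp => ?_⟩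
  · rw [hz, hz, hz, Yadd]; group
  · rw [hz] at e
    exact conj_eq_one_iff.1 e
  · exact (mem_centralizer_iff.1 (hX.c1 i (zX i a)) _ (zX _ b)).symm
  · exact (mem_centralizer_iff.1 (hX.c2 i (zX i a)) _ (zX _ b)).symm
  · rw [z1, z4, hP.rs, ← z1, ← z4, wey, wey]; rfl
  · rw [hz, Yres, wx, bs_kk]
  · have c := (kb.tL _ (wL (kk i))).eq
    rw [hz, hz, ← Yconj]
    calc t * (w (kk i) * Y i a * (w (kk i))⁻¹) * t⁻¹ = t * w (kk i) * Y i a * (t * w (kk i))⁻¹ := by
          group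
      _ = _ := by rw [c]; group
  · obtain ⟨g, hg⟩ : ∃ g, g = (w (kk i))⁻¹ * h * w (kk i) := ⟨_, rfl⟩
    have gL : g ∈ L := hg ▸ mul_mem (mul_mem (inv_mem (wL _)) hh) (wL _)
    have act : ∀ r c, g * x r c * g⁻¹ = x r (wt α β (r + 2 * kk i) * c) := fun r c => by
      calc g * x r c * g⁻¹ = (w (kk i))⁻¹ * (h * (w (kk i) * x r c * (w (kk i))⁻¹) * h⁻¹) *
            w (kk i) := by rw [hg]; group
        _ = _ := by rw [wx, hT, ← wx]; group
    have gH : g ∈ HH x L := by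
      refine mem_inf.2 ⟨gL, mem_iInf.2 fun r => mem_normalizer_fintype fun p hp => ?_⟩
      obtain ⟨c, rfl⟩ := (kp.memX r p).1 hp
      exact (kp.memX r _).2 ⟨_, act r c⟩
    obtain ⟨α', β', hT'⟩ := kp.memH g gH
    have e : (wt α' β' (bs i) : F) = wt α β i := by
      have e1 := (hT' (bs i) 1).symm.trans (act (bs i) 1)
      rw [bs_kk, mul_one, mul_one] at e1
      have e2 := hC.mod.pin.add (bs i) (wt α' β' (bs i) - wt α β i) (wt α β i)
      rw [sub_add_cancel, e1] at e2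
      exact sub_eq_zero.1 (hC.mod.pin.inj _ _ (right_eq_mul.1 e2))
    rw [hz, hz, ← e, ← Ytor g gL α' β' hT', hg]; group
  · obtain ⟨a, rfl⟩ := hp
    exact hX.odd i k hk c o _ (zX i a)

end Cfsg.Agent.H5.S4P
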