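import Cfsg.Agent.H42.FvDefs

/-! Real additive functions on the roots: additivity and dominant conjugates. -/

set_option autoImplicit false

namespace Cfsg.Agent.H5.FvAddR

open Equiv Cfsg.Lie H37 H40 H34 H29 H50.E83 H42.Fv Finset

section
variable {ι Φ : Type*} [Fintype ι] [DecidableEq ι] {R : RS ι Φ} {l : Φ → ℝ}

theorem comp (hl : ∀ r, l r = ∑ j, (R.rc r j : ℝ) * l (R.simple j)) {w : Perm Φ} (hw : w ∈ R.W)
    (r : Φ) : l (w r) = ∑ j, (R.rc r j : ℝ) * l (w (R.simple j)) := by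
  simp only [hl (w _), R.rc_W hw r, Finset.sum_apply, Pi.smul_apply, smul_eq_mul, Int.cast_sum,
    Int.cast_mul, sum_mul, mul_sum, mul_assoc]
  exact sum_comm

theorem refl (hl : ∀ r, l r = ∑ j, (R.rc r j : ℝ) * l (R.simple j)) (i : ι) (r : Φ) :
    l (R.σ i r) = l r - R.wt r i * l (R.simple i) := by
  rw [hl (R.σ i r), hl r]
  simp [R.rc_σ, sub_mul, sum_sub_distrib, Pi.single_apply]

theorem dom [Fintype Φ] (hl : ∀ r, l r = ∑ j, (R.rc r j : ℝ) * l (R.simple j)) :
    ∃ w ∈ R.W, ∀ r, R.Pos r → 0 ≤ l (w r) := by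
  obtain ⟨⟨w, hw⟩, h⟩ := Finite.exists_max fun w : R.W => ∑ r, (R.ht r : ℝ) * l (w.1 r)
  have hg := comp hl hw
  have key : ∀ i, 0 ≤ l (w (R.simple i)) := fun i => by
    have h1 := h ⟨w * R.σ i, mul_mem hw (R.σ_mem_W i)⟩
    have h2 := refl (l := fun r => l (w r)) hg i
    simp only [Perm.mul_apply, h2, mul_sub, sum_sub_distrib, ← mul_assoc, ← sum_mul] at h1
    have h3 := (isAdd_ht (R := R)).sum_pair (R.simple i)
    have h4 : 0 < ∑ r, R.pair (R.simple i) r ^ 2 :=
      sum_pos' (fun r _ => sq_nonneg _) ⟨R.simple i, mem_univ _, by rw [R.pair_self]; norm_num⟩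
    rw [R.ht_simple, one_mul] at h3
    have h5 : 0 < ∑ r, R.ht r * R.wt r i := by
      simp only [R.pair_simple_left, mul_comm (R.wt _ i)] at h3 h4
      omega
    have h6 : (0 : ℝ) < ∑ r, (R.ht r : ℝ) * R.wt r i := by exact_mod_cast h5
    exact (mul_nonneg_iff_of_pos_left h6).1 (by linarith)
  refine ⟨w, hw, fun r hr => ?_⟩
  rw [hg r]
  exact sum_nonneg fun j _ => mul_nonneg (by exact_mod_cast hr j) (key j)

end

theorem addR : AddRStmt := fun l hl => by
  refine ⟨fun r s t h => ?_, fun r => ?_, fun w hw => comp hl hw⟩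
  · rw [hl t, hl r, hl s, show C8.R.rc t = _ from h, ← sum_add_distrib]
    exact sum_congr rfl fun j _ => by rw [Pi.add_apply, Int.cast_add, add_mul]
  · rw [hl (C8.R.neg r), hl r, C8.R.rc_neg, ← sum_neg_distrib]
    exact sum_congr rfl fun j _ => by rw [Pi.neg_apply, Int.cast_neg, neg_mul]

theorem domR : DomRStmt := fun _ hl => dom hl

end Cfsg.Agent.H5.FvAddR
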