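import Cfsg.Agent.H9.C3Defs
import Cfsg.Agent.H63.QuoCore

/-!
The centralizer of `VV x` is 2-closed.
-/

set_option autoImplicit false

namespace Cfsg.Agent.H5.C3K

open Subgroup Cfsg.Agent.H9.C3 Cfsg.Agent.H63 Cfsg.Agent.H67

universe u

variable {G : Type u} [Group G]

theorem mem_zp3 {x y : G} (hx : orderOf x = 3) (hy : y ∈ zpowers x) :
    y = 1 ∨ y = x ∨ y = x⁻¹ := by
  have h3 : x ^ 3 = 1 := by rw [← hx]; exact pow_orderOf_eq_one x
  obtain ⟨k, rfl⟩ := mem_zpowers_iff.1 hy
  have h3' : x ^ (3 : ℤ) = 1 := by exact_mod_cast h3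
  have hk : x ^ k = x ^ (k % 3) := by
    conv_lhs => rw [← Int.mul_ediv_add_emod k 3, zpow_add, zpow_mul, h3', one_zpow, one_mul]
  have h0 : k % 3 = 0 ∨ k % 3 = 1 ∨ k % 3 = 2 := by omega
  rcases h0 with h | h | h
  · left; rw [hk, h, zpow_zero]
  · right; left; rw [hk, h, zpow_one]
  · right; right; rw [hk, h]
    apply eq_inv_of_mul_eq_one_left
    rw [← zpow_add_one]; exact h3'

theorem k2c : K2CStmt.{u} := by
  intro G _ _ hK hcop hinv x hx hV
  have : Fact (Nat.Prime 3) := ⟨Nat.prime_three⟩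
  have hx1 : x ≠ 1 := by
    rintro rfl
    rw [orderOf_one] at hx
    exact absurd hx (by decide)
  have hxH : x ∈ centralizer (VV x : Set G) := by
    rw [mem_centralizer_iff]
    intro v hv
    exact ((hK.mem x hx v).1 hv).2
  have hzp : IsPGroup 3 (zpowers x) :=
    IsPGroup.of_card (n := 1) (by rw [Nat.card_zpowers, hx]; rfl)
  obtain ⟨Q, hQ, hxQ⟩ := exists_syl_ge (p := 3) (M := centralizer (VV x : Set G))
    (zpowers_le.2 hxH) hzp
  obtain ⟨P, hP⟩ := (syl_isPGroup hQ).exists_le_sylow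
  have hxP : x ∈ (P : Subgroup G) := hP (hxQ (mem_zpowers x))
  have hQx : Q = zpowers x := by
    refine le_antisymm ?_ hxQ
    intro y hy
    by_contra hn
    have hy1 : y ≠ 1 := by
      rintro rfl
      exact hn (one_mem _)
    have hyo : orderOf y = 3 := orderOf_eq_prime (hK.cube P y (hP hy)) hy1
    apply hV
    rw [eq_bot_iff]
    intro v hv
    have hyH : y ∈ centralizer (VV x : Set G) := hQ.1 hy
    exact mem_bot.2 (hK.fpf x y hx hyo (hK.comm P x hxP y (hP hy)) hn v hv
      (mem_centralizer_iff.1 hyH v hv))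
  subst hQx
  have hB : NormalPCompl 3 (centralizer (VV x : Set G)) := by
    refine Burnside_normal_complement hQ ?_
    rintro n ⟨hnH, hnN⟩
    have h1 : n * x * n⁻¹ ∈ zpowers x :=
      (mem_normalizer_iff.1 hnN x).1 (mem_zpowers x)
    have h2 : n * x * n⁻¹ = x := by
      rcases mem_zp3 hx h1 with h | h | h
      · exact absurd (by simpa using h) hx1
      · exact h
      · obtain ⟨v, hv, hne⟩ := hinv x n hx h hV
        exact absurd (mem_centralizer_iff.1 hnH v hv).symm hne
    have h3 : Commute x n := by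
      rw [mul_inv_eq_iff_eq_mul] at h2
      exact h2.symm
    rw [mem_centralizer_iff]
    intro y hy
    obtain ⟨k, rfl⟩ := mem_zpowers_iff.1 hy
    exact (h3.zpow_left k).eq
  have hN : Nm (VV x) ≤ Nm (Cfsg.piCoreOf ({3}ᶜ : Set ℕ) (centralizer (VV x : Set G))) :=
    le_normalizer_piCoreOf (normalizer_le_normalizer_centralizer _)
  have hPV : (P : Subgroup G) ≤ Nm (VV x) := by
    have key : ∀ p ∈ (P : Subgroup G), ∀ v ∈ VV x, p * v * p⁻¹ ∈ VV x := by
      intro p hp v hv
      obtain ⟨h1, h2⟩ := (hK.mem x hx v).1 hv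
      have h3 : p * x = x * p := hK.comm P p hp x hxP
      have h4 : p⁻¹ * x = x * p⁻¹ := hK.comm P p⁻¹ (inv_mem hp) x hxP
      refine (hK.mem x hx _).2 ⟨?_, ?_⟩
      · calc p * v * p⁻¹ * (p * v * p⁻¹) = p * (v * v) * p⁻¹ := by group
          _ = 1 := by rw [h1]; group
      · calc p * v * p⁻¹ * x = p * v * (p⁻¹ * x) := by group
          _ = p * (v * x) * p⁻¹ := by rw [h4]; group
          _ = (p * x) * v * p⁻¹ := by rw [h2]; group
          _ = x * (p * v * p⁻¹) := by rw [h3]; group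
    intro p hp
    rw [mem_normalizer_iff]
    intro v
    refine ⟨key p hp v, fun h => ?_⟩
    have := key p⁻¹ (inv_mem hp) _ h
    simpa [mul_assoc] using this
  refine ⟨_, hcop P _ (hPV.trans hN) ?_, hN, piCoreOf_le _ _, ?_⟩
  · rw [eq_bot_iff]
    rintro k ⟨hk1, hk2⟩
    by_contra hk
    have hko : orderOf k = 3 := orderOf_eq_prime (hK.cube P k hk2) (fun h => hk (mem_bot.2 h))
    have := isPi_piCoreOf ({3}ᶜ : Set ℕ) (centralizer (VV x : Set G)) 3 Nat.prime_three
      (by have := Subgroup.orderOf_dvd_natCard _ hk1; rwa [hko] at this)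
    exact this rfl
  · intro g hg k hk
    refine mem_piCoreOf_of_hall hB.hall hg ?_
    intro p hp hd h3
    have h3' : p = 3 := h3
    subst h3'
    have h1 : 3 ∣ 2 ^ k := hd.trans (orderOf_dvd_of_pow_eq_one hk)
    have := (Nat.prime_three.dvd_of_dvd_pow h1)
    omega

end Cfsg.Agent.H5.C3K
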