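import Cfsg.Agent.H11.CyDefs

/-! Project CY (row S3256): from the systems of prime order to the row. -/

set_option autoImplicit false

namespace Cfsg.Agent.H5.CyFin

open Subgroup MulAction Cfsg.Agent.H11.Cy

theorem fin : FinStmt := by
  intro hM G _ _ Ω _ _ _ h2 α Q hQ hQn hQ1 hQc
  have t2 : ∀ {a b c d : Ω}, a ≠ b → c ≠ d → ∃ g : G, g • a = c ∧ g • b = d :=
    is_two_pretransitive_iff.1 h2
  have faith : ∀ g : G, (∀ x : Ω, g • x = x) → g = 1 := fun g h =>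
    eq_of_smul_eq_smul (α := Ω) fun x => by rw [h, one_smul]
  obtain ⟨c, rfl⟩ := (Subgroup.isCyclic_iff_exists_zpowers_eq_top Q).1 hQc
  have c1 : c ≠ 1 := fun h => hQ1 (by rw [h, zpowers_one_eq_bot])
  have nt : Nontrivial Ω := by
    by_contra h
    rw [not_nontrivial_iff_subsingleton] at h
    exact c1 (faith c fun x => Subsingleton.elim _ _)
  have t1 : ∀ x : Ω, ∃ g : G, g • α = x := fun x => by
    obtain ⟨b, hb⟩ := exists_ne α
    obtain ⟨d, hd⟩ := exists_ne x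
    obtain ⟨g, hg, -⟩ := t2 hb.symm hd.symm
    exact ⟨g, hg⟩
  choose σ hσ using t1
  have nc : ∀ g : G, g • α = α → ∃ k : ℤ, ∀ a ∈ zpowers c, g * a * g⁻¹ = a ^ k := fun g hg => by
    obtain ⟨k, hk⟩ : g * c * g⁻¹ ∈ zpowers c :=
      hQn.conj_mem ⟨c, hQ (mem_zpowers c)⟩ (mem_zpowers c) ⟨g, hg⟩
    refine ⟨k, ?_⟩
    rintro _ ⟨m, rfl⟩
    have hk' : c ^ k = g * c * g⁻¹ := hk
    change g * c ^ m * g⁻¹ = (c ^ m) ^ k
    rw [← conj_zpow, ← hk', ← zpow_mul, ← zpow_mul, mul_comm]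
  have sr : ∀ a ∈ zpowers c, ∀ y, a • y = y → a = 1 ∨ y = α := fun a ha y hy => by
    by_cases hyα : y = α
    · exact Or.inr hyα
    refine Or.inl (faith a fun x => ?_)
    by_cases hx : x = α
    · rw [hx]; exact hQ ha
    obtain ⟨g, hg, hgx⟩ := t2 (Ne.symm hx) (Ne.symm hyα)
    obtain ⟨k, hk⟩ := nc g hg
    have h1 : (g * a * g⁻¹) • y = y := by
      rw [hk a ha]
      exact zpow_mem (show a ∈ stabilizer G y from hy) k
    rw [← hgx, mul_smul, mul_smul, inv_smul_smul] at h1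
    exact smul_left_cancel g h1
  have n0 : orderOf c ≠ 0 := (orderOf_pos c).ne'
  have n1 : orderOf c ≠ 1 := fun h => c1 (orderOf_eq_one_iff.1 h)
  obtain ⟨p, pp, hp⟩ := Nat.exists_prime_and_dvd n1
  obtain ⟨a0, ha0, o0⟩ : ∃ a0 ∈ zpowers c, orderOf a0 = p :=
    ⟨_, pow_mem (mem_zpowers c) _, orderOf_pow_orderOf_div n0 hp⟩
  have ZQ : zpowers a0 ≤ zpowers c := zpowers_le.2 ha0
  have nZ : ∀ g : G, g • α = α → ∀ a ∈ zpowers a0, g * a * g⁻¹ ∈ zpowers a0 := fun g hg a ha => by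
    obtain ⟨k, hk⟩ := nc g hg
    rw [hk a (ZQ ha)]
    exact zpow_mem ha k
  let A : Ω → Subgroup G := fun x => (zpowers a0).map (MulAut.conj (σ x)).toMonoidHom
  have mA : ∀ x a, a ∈ A x ↔ (σ x)⁻¹ * a * σ x ∈ zpowers a0 := fun x a => by
    constructor
    · rintro ⟨b, hb, rfl⟩
      simpa [mul_assoc] using hb
    · exact fun h => ⟨_, h, by simp [mul_assoc]⟩
  have hσ' : ∀ x, (σ x)⁻¹ • x = α := fun x => inv_smul_eq_iff.2 (hσ x).symm
  have st : St p A := by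
    refine ⟨pp, faith, fun x _ y _ x' _ y' _ h h' => ?_, nt, fun x => ?_, fun x a ha => ?_,
      fun g x a ha => ?_, fun x y a ha hy => ?_⟩
    · obtain ⟨g, hg⟩ := t2 h h'
      exact ⟨g, mem_top g, hg⟩
    · rw [card_map_of_injective (MulAut.conj (σ x)).injective, Nat.card_zpowers, o0]
    · have : ((σ x)⁻¹ * a * σ x) • α = α := hQ (ZQ ((mA x a).1 ha))
      rw [mul_smul, mul_smul, hσ, inv_smul_eq_iff, hσ] at this
      exact this
    · have := nZ ((σ (g • x))⁻¹ * g * σ x) (by rw [mul_smul, mul_smul, hσ, hσ']) _ ((mA x a).1 ha)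
      rw [mA]
      convert this using 1
      group
    · rcases sr _ (ZQ ((mA x a).1 ha)) ((σ x)⁻¹ • y)
        (by rw [mul_smul, mul_smul, smul_inv_smul, hy]) with h | h
      · left
        calc a = σ x * ((σ x)⁻¹ * a * σ x) * (σ x)⁻¹ := by group
          _ = 1 := by rw [h]; group
      · right
        rw [inv_smul_eq_iff, hσ] at h
        exact h
  rcases hM G Ω p A st with h | ⟨M, Mn, Ms, -, ⟨x, h, hM', hx, hc⟩, hcase⟩
  · exact Or.inl h
  have hpow : ∃ k, Nat.card Ω = p ^ k + 1 := by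
    rcases hcase with ⟨-, e, -⟩ | ⟨e, -⟩ | ⟨rfl, e, -⟩
    exacts [⟨1, by rw [e, pow_one]⟩, ⟨3, e⟩, ⟨3, e⟩]
  have prim : ∀ r : ℕ, r.Prime → r ∣ orderOf c → r = p := fun r rp hr => by
    obtain ⟨b, hb, ob⟩ : ∃ b ∈ zpowers c, orderOf b = r :=
      ⟨_, pow_mem (mem_zpowers c) _, orderOf_pow_orderOf_div n0 hr⟩
    have := Fact.mk rp
    have hP : IsPGroup r (zpowers b) := IsPGroup.of_card (n := 1) (by
      rw [Nat.card_zpowers, ob, pow_one])
    have h1 := hP.card_modEq_card_fixedPoints Ω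
    have h2 : fixedPoints (zpowers b) Ω = {α} := by
      ext y
      refine ⟨fun hy => (sr b hb y (hy ⟨b, mem_zpowers b⟩)).resolve_left fun e => ?_, ?_⟩
      · rw [e, orderOf_one] at ob
        exact rp.ne_one ob.symm
      · rintro rfl g
        exact hQ (zpowers_le.2 hb g.2)
    obtain ⟨k, hk⟩ := hpow
    rw [h2, hk, Nat.card_unique] at h1
    have h3 : r ∣ p ^ k := by simpa using (Nat.modEq_iff_dvd' (Nat.le_add_left 1 _)).1 h1.symm
    exact (Nat.prime_dvd_prime_iff_eq rp pp).1 (rp.dvd_of_dvd_pow h3)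
  have hM2 : (σ x)⁻¹ * h * σ x ∈ M := Mn.conj_mem' h hM' _
  obtain ⟨k, hk⟩ := nc ((σ x)⁻¹ * h * σ x) (by rw [mul_smul, mul_smul, hσ, hx, hσ'])
  have hk1 : ¬ (p : ℤ) ∣ k - 1 := fun hd => hc (by
    rw [mem_centralizer_iff]
    intro a ha
    have hb := (mA x a).1 ha
    have e1 := hk _ (ZQ hb)
    have e2 : ((σ x)⁻¹ * a * σ x) ^ (k - 1) = 1 :=
      orderOf_dvd_iff_zpow_eq_one.1
        ((Int.natCast_dvd_natCast.2 (o0 ▸ orderOf_dvd_of_mem_zpowers hb)).trans hd)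
    rw [zpow_sub_one, mul_inv_eq_one] at e2
    rw [e2] at e1
    calc a * h = σ x * ((σ x)⁻¹ * a * σ x) * (σ x)⁻¹ * h := by group
      _ = h * a := by rw [← e1]; group)
  have cM : c ∈ M := by
    have e1 : c ^ (k - 1) ∈ M := by
      rw [zpow_sub_one, ← hk c (mem_zpowers c), mul_assoc, mul_assoc, ← mul_assoc c]
      exact mul_mem hM2 (Mn.conj_mem _ (inv_mem hM2) c)
    rw [← QuotientGroup.eq_one_iff] at e1 ⊢
    by_contra hne
    obtain ⟨r, rp, hr⟩ := Nat.exists_prime_and_dvd (mt orderOf_eq_one_iff.1 hne)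
    have e2 := prim r rp (hr.trans (orderOf_map_dvd (QuotientGroup.mk' M) c))
    rw [QuotientGroup.mk_zpow] at e1
    exact hk1 (e2 ▸ (Int.natCast_dvd_natCast.2 hr).trans (orderOf_dvd_iff_zpow_eq_one.2 e1))
  have heq : normalClosure (zpowers c : Set G) = M := by
    refine le_antisymm (normalClosure_le_normal (zpowers_le.2 cM)) ?_
    rcases (inferInstance : ((normalClosure (zpowers c : Set G)).subgroupOf M).Normal).eq_bot_or_eq_top
      with e | e
    · have : (⟨c, cM⟩ : M) ∈ (normalClosure (zpowers c : Set G)).subgroupOf M :=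
        subset_normalClosure (mem_zpowers c)
      rw [e, mem_bot] at this
      exact absurd (congrArg Subtype.val this) c1
    · exact subgroupOf_eq_top.1 e
  unfold Row
  rw [heq, ← Nat.card_eq_fintype_card]
  rcases hcase with ⟨-, e, F, _, _, hF, hi⟩ | ⟨e, F, _, _, hF, hi⟩ | ⟨-, e, h8, h3⟩
  · exact Or.inr (Or.inl ⟨F, _, _, by rw [e, hF], hi⟩)
  · exact Or.inr (Or.inr (Or.inl ⟨F, _, _, p, hF, e, hi⟩))
  · exact Or.inr (Or.inr (Or.inr ⟨e, h8, h3⟩))

end Cfsg.Agent.H5.CyFin
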