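import Cfsg.Agent.H45.GdDefs

/-! Project CY (row S3256), chapter IV: a dihedral argument. -/

set_option autoImplicit false

namespace Cfsg.Agent.H5.CyGdA1

open Subgroup MulAction Cfsg.Agent.H11.Cy Cfsg.Agent.H45.Iv Cfsg.Agent.H45.Gd

theorem key {G : Type} [Group G] {z τ : G} (zz : z * z = 1) (ee : τ * τ * (τ * τ) = 1)
    (hc : Commute z (τ * z * τ⁻¹)) (ho : Odd (orderOf (z * (τ * τ)))) : z = τ * τ := by
  obtain ⟨k, hk⟩ := ho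
  have ei : (τ * τ)⁻¹ = τ * τ := inv_eq_of_mul_eq_one_right ee
  have hp : z * (τ * τ) = (z * (τ * τ) * (z * (τ * τ))) ^ (k + 1) := by
    rw [← pow_two (z * (τ * τ)), ← pow_mul, show 2 * (k + 1) = 2 * k + 1 + 1 by ring, pow_succ, ← hk,
      pow_orderOf_eq_one, one_mul]
  have h1 : Commute (τ * z * τ⁻¹) (τ * τ * z * (τ * τ)) := by
    have := hc.conj τ
    rwa [show τ * (τ * z * τ⁻¹) * τ⁻¹ = τ * τ * z * (τ * τ)⁻¹ by group, ei] at this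
  have h2 : Commute (τ * z * τ⁻¹) (z * (τ * τ)) := by
    rw [hp]
    refine Commute.pow_right ?_ _
    rw [show z * (τ * τ) * (z * (τ * τ)) = z * (τ * τ * z * (τ * τ)) by group]
    exact hc.symm.mul_right h1
  have h3 : Commute (τ * z * τ⁻¹) (τ * τ) := by
    have := hc.symm.inv_right.mul_right h2
    rwa [inv_mul_cancel_left] at this
  have h4 : Commute z (τ * τ) := by
    have := h3.conj τ⁻¹
    rwa [show τ⁻¹ * (τ * z * τ⁻¹) * τ⁻¹⁻¹ = z by group,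
      show τ⁻¹ * (τ * τ) * τ⁻¹⁻¹ = τ * τ by group] at this
  have h5 : z * (τ * τ) * (z * (τ * τ)) = 1 := by
    rw [h4.symm.mul_mul_mul_comm, zz, ee, one_mul]
  rw [h5, one_pow] at hp
  rw [← ei]
  exact eq_inv_of_mul_eq_one_left hp

theorem a1 : A1Stmt := by
  intro G _ _ Ω _ _ p A mx mk od dp Ψ hΨ z hz z1 x hx b hb b1 hc
  obtain ⟨y, hy, a, ha, hr, e1⟩ := dp Ψ hΨ (fun h => z1 (by rwa [h, mem_bot] at hz)) x hx b hb b1
  have xy : x ≠ y := fun h => hx (h ▸ hy)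
  obtain ⟨-, lb, lc, -⟩ := mx.ls x y xy
  have he := lb.sq _ hr
  obtain ⟨Φ, hΦ, hL⟩ := mk.two x y xy
  have xΦ := hL (mx.sk.ln x y).1
  have yΦ := hL (mx.sk.ln x y).2
  have ne : Ψ ≠ Φ := fun h => hx (h ▸ xΦ)
  have eE := mk.ze Φ hΦ x xΦ y yΦ xy he
  have za : a * z = z * a := (mx.sk.cs Ψ z).1 hz.2 y hy a ha
  have e2 : b * a⁻¹ * z * (b * a⁻¹)⁻¹ = b * z * b⁻¹ := by
    calc b * a⁻¹ * z * (b * a⁻¹)⁻¹ = b * a⁻¹ * (z * a) * b⁻¹ := by group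
      _ = _ := by rw [← za]; group
  have := key ((mk.gd Ψ hΨ).2.1 z hz) (lc.zsq _ he) (by rw [e2]; exact hc)
    (od Ψ Φ hΨ hΦ ne z hz z1 _ eE e1 y hy yΦ)
  exact z1 (mk.ti Ψ Φ hΨ hΦ ne z hz (this ▸ eE))

end Cfsg.Agent.H5.CyGdA1
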