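import Cfsg.Agent.H45.IvDefs

/-! Project CY (row S3256), chapter IV: the regular normal subgroup. -/

set_option autoImplicit false

namespace Cfsg.Agent.H5.CyIva

open Subgroup MulAction Cfsg.Agent.H11.Cy Cfsg.Agent.H45.Iv

theorem iva : IvaStmt := by
  intro G _ _ Ω _ _ p A st sk ga
  refine ⟨Ts A Set.univ, ⟨fun m hm g => (sk.nrm Set.univ g fun _ => Iff.rfl).2.1 m hm⟩,
    ⟨fun x y => ?_⟩, fun x => eq_bot_iff.2 fun t ht => ?_⟩
  · obtain ⟨t, ht, e⟩ := (ga x).tr y trivial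
    exact ⟨⟨t, ht⟩, e⟩
  · exact Subtype.ext (st.faith _ fun w => sk.csfix _ _ ((ga x).stab t.1 t.2 ht) w trivial)

end Cfsg.Agent.H5.CyIva
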