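import Cfsg.Agent.H50.E72Defs

/-! Project E72, piece BC: base change of the module of dimension 56. -/

set_option autoImplicit false

namespace Cfsg.Agent.H5.E72Bc

open Cfsg.Lie H37 H40 H34 H29 Cfsg.Agent.H50.E72
open scoped Matrix

section gen
variable {F F' : Type} [Field F] [Field F'] (σ : F →+* F') {n : ℕ}

theorem evT0_map (L : List (Tm0 n)) : σ.mapMatrix (evT0 F L) = evT0 F' L := by
  rw [evT0, evT0, map_list_sum, List.map_map]
  congr 1
  refine List.map_congr_left fun e _ => ?_
  rw [Function.comp_apply, RingHom.mapMatrix_apply, Matrix.map_single, map_intCast]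

theorem rho_map (D : ChevalleyDatum) (H E : ℕ → List (Tm0 n)) (v : D.Idx → F) :
    σ.mapMatrix (rhoT D H E F v) = rhoT D H E F' (σ ∘ v) := by
  rw [rhoT, rhoT, Fintype.linearCombination_apply, Fintype.linearCombination_apply, map_sum]
  refine Finset.sum_congr rfl fun w _ => ?_
  have : ∀ (c : F) (M : Matrix (Fin n) (Fin n) F), σ.mapMatrix (c • M) = σ c • σ.mapMatrix M :=
    fun c M => by ext i j; simp
  rw [this]
  rcases w with i | s
  · rw [Sum.elim_inl, Sum.elim_inl, evT0_map]; rfl
  · rw [Sum.elim_inr, Sum.elim_inr, evT0_map]; rfl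

theorem rel_map (D : ChevalleyDatum) (H E : ℕ → List (Tm0 n)) (M : Matrix D.Idx D.Idx F)
    (A : Matrix (Fin n) (Fin n) F) (h : ∀ v, A * rhoT D H E F v = rhoT D H E F (M *ᵥ v) * A)
    (v : D.Idx → F') :
    A.map σ * rhoT D H E F' v = rhoT D H E F' (M.map σ *ᵥ v) * A.map σ := by
  have : (LinearMap.mulLeft F' (A.map σ)) ∘ₗ rhoT D H E F' =
      (LinearMap.mulRight F' (A.map σ)) ∘ₗ rhoT D H E F' ∘ₗ (M.map σ).mulVecLin := by
    refine LinearMap.pi_ext' fun w => LinearMap.ext_ring ?_
    simp only [LinearMap.comp_apply, LinearMap.single_apply, LinearMap.mulLeft_apply,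
      LinearMap.mulRight_apply, Matrix.mulVecLin_apply]
    have e : (Pi.single w 1 : D.Idx → F') = σ ∘ (Pi.single w 1 : D.Idx → F) := by
      funext u
      by_cases k : u = w
      · subst k; simp
      · simp [k]
    have := congrArg σ.mapMatrix (h (Pi.single w 1))
    rw [map_mul, map_mul, rho_map, rho_map] at this
    have e2 : M.map σ *ᵥ (σ ∘ (Pi.single w 1 : D.Idx → F)) = σ ∘ (M *ᵥ Pi.single w 1) :=
      funext fun u => (RingHom.map_mulVec σ M _ u).symm
    rw [e, e2]
    exact this
  exact DFunLike.congr_fun this v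

end gen

theorem bc : BcStmt := fun g A h => by
  refine ⟨fun v => rel_map _ chevE7 H56 E56 _ A h.1 v, ?_⟩
  have e : J56 K = (J56 (ZMod 2)).map (algebraMap (ZMod 2) K) := by
    ext a b
    simp only [J56, Matrix.of_apply, Matrix.map_apply]
    split_ifs
    exacts [(map_one _).symm, (map_zero _).symm]
  rw [e, ← Matrix.transpose_map, ← Matrix.map_mul, ← Matrix.map_mul, h.2]

end Cfsg.Agent.H5.E72Bc
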