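import Cfsg.Agent.H6.E82Defs
import Cfsg.Agent.H34.SsConj

/-! Elements of odd order of `E₈(2)` that are conjugate over the algebraic closure are
conjugate. -/

set_option autoImplicit false

namespace Cfsg.Agent.H5.E82Conj

open Cfsg.Agent.H6.E82 Cfsg.Agent.H34 Cfsg.Agent.H40

theorem conj : ConjStmt := fun g g' h hc => by
  replace h : (orderOf g).Coprime 2 := Nat.coprime_two_right.mpr h
  refine Cert.isConj_of_isConj C8 invE8 one_ne_zero (algebraMap (ZMod 2) K) (ZMod.card 2)
    (by decide) 2 h ?_ hc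
  obtain ⟨x, hx⟩ := isConj_iff.1 hc
  rwa [← orderOf_injective ι ι_injective, ← hx, ← MulAut.conj_apply, MulEquiv.orderOf_eq,
    orderOf_injective ι ι_injective]

end Cfsg.Agent.H5.E82Conj
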