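import Mathlib
import Cfsg.Agent.H50.E83Defs2
import Cfsg.Agent.H40.InvOdd

/-! An involution centralising a set of torus involutions is conjugate, inside the centraliser, to an
element of `N` preserving the positive roots of the common subsystem. -/

set_option autoImplicit false

namespace Cfsg.Agent.H5.E83T1

open Equiv Cfsg.Lie H37 H40 H34 H29 Module
open Cfsg.Agent.H50.E83

section gen
variable {D : ChevalleyDatum} {C : Cert D} {F : Type*} [Field F]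

theorem red (hodd : ∀ u ∈ (C.split F).Up, Odd (orderOf u)) (Z : Subgroup (D.group F)) {a n : D.group F}
    (ha : a ∈ (C.split F).Up) (hn : n ∈ (C.split F).N) (haZ : a ∈ Z) (ht : a * n * (a * n) = 1) :
    n * n = 1 ∧ ∃ g ∈ Z, g * (a * n) * g⁻¹ = n := by
  have h1 : n * n = 1 := (isConj_N hodd ha hn (one_mem _) (by simpa using ht)).1
  refine ⟨h1, ?_⟩
  have e3 : n * a * n⁻¹ = a⁻¹ := by
    rw [inv_eq_of_mul_eq_one_right h1, eq_inv_iff_mul_eq_one,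
      show n * a * n * a = a⁻¹ * (a * n * (a * n)) * n⁻¹ * (n * n) * (n⁻¹ * a) * (n⁻¹ * a)⁻¹ * n⁻¹ * a by group,
      ht, h1]
    group
    rw [show n ^ (-2 : ℤ) = (n * n)⁻¹ by group, h1]; group
  obtain ⟨k, hk⟩ := hodd a ha
  have e5 : a ^ (k + 1) * a ^ (k + 1) = a := by
    rw [← pow_add, show k + 1 + (k + 1) = orderOf a + 1 by omega, pow_succ, pow_orderOf_eq_one, one_mul]
  have e6 : n * a ^ (k + 1) * n⁻¹ = (a ^ (k + 1))⁻¹ := by rw [← conj_pow, e3, inv_pow]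
  refine ⟨(a ^ (k + 1))⁻¹, inv_mem (pow_mem haZ _), ?_⟩
  generalize a ^ (k + 1) = y at e5 e6
  rw [← e5, show y⁻¹ * (y * y * n) * y⁻¹⁻¹ = y * (n * y * n⁻¹) * n by group, e6]; group

theorem comm_xg {h : D.group F} {f : Fin D.nroots → ℤ} (hl : Lab C (-1) h f) {r : Fin D.nroots}
    (hr : Even (f r)) (t : F) : Commute h (C.xg F r t) := by
  have := hl.conj_xg r t
  rw [hr.neg_one_zpow, Units.val_one, one_mul] at this
  exact mul_inv_eq_iff_eq_mul.1 this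

theorem even_neg' {f : Fin D.nroots → ℤ} (hf : IsAdd C.R f) {r : Fin D.nroots} (hr : Even (f r)) :
    Even (f (C.R.neg r)) := by
  rw [← C.R.τ_self, hf.τ]
  exact hr.sub (hr.mul_left _)

theorem even_τ' {f : Fin D.nroots → ℤ} (hf : IsAdd C.R f) {r s : Fin D.nroots} (hr : Even (f r))
    (hs : Even (f s)) : Even (f (C.R.τ r s)) := by
  rw [hf.τ]
  exact hs.sub (hr.mul_left _)

theorem ν_sq {n : D.group F} (hn : n ∈ (C.split F).N) (h : n * n = 1) :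
    (C.split F).ν n * (C.split F).ν n = 1 := by
  rw [← (C.split F).ν_mul _ hn _ hn, h, Split.ν_one]

theorem comm_xg_neg {h : D.group F} {f : Fin D.nroots → ℤ} (hl : Lab C (-1) h f) {r : Fin D.nroots}
    (hr : Even (f r)) (t : F) : Commute h (C.xg F (D.neg r) t) := by
  have := comm_xg hl (even_neg' hl.1 hr) t
  rwa [C.neg_val] at this

theorem comm_ng {h : D.group F} {f : Fin D.nroots → ℤ} (hl : Lab C (-1) h f) {r : Fin D.nroots}
    (hr : Even (f r)) (t : F) : Commute h (C.ng F r t) := by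
  rw [Cert.ng_eq]
  exact ((comm_xg hl hr _).mul_right (comm_xg_neg hl hr _)).mul_right (comm_xg hl hr _)

theorem even_ν (hζ : IsPrimitiveRoot (-1 : Fˣ) 2) {h n : D.group F} {f : Fin D.nroots → ℤ}
    (hl : Lab C (-1) h f) (hn : n ∈ (C.split F).N) (hc : Commute h n) {r : Fin D.nroots}
    (hr : Even (f r)) : Even (f ((C.split F).ν n r)) := by
  have e : n * h * n⁻¹ = h := by rw [← hc.eq, mul_inv_cancel_right]
  have := Lab.rel_N hζ hn hl (e.symm ▸ hl) r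
  rw [even_iff_two_dvd] at hr ⊢
  have h2 : ((f r : ℤ) : ZMod 2) = 0 := (ZMod.intCast_zmod_eq_zero_iff_dvd _ 2).2 (by exact_mod_cast hr)
  exact_mod_cast (ZMod.intCast_zmod_eq_zero_iff_dvd _ 2).1 (this.trans h2)

/-- The case `w β = -β`. -/
theorem step_neg [IsAlgClosed F] {n : D.group F} (hn : n ∈ (C.split F).N) {β : Fin D.nroots}
    (hβ : (C.split F).ν n β = C.R.neg β) : ∃ b : F, b ≠ 0 ∧
      C.xg F (D.neg β) (-b) * n * (C.xg F (D.neg β) (-b))⁻¹ = C.xg F β (-b⁻¹) * (C.ng F β b⁻¹ * n) := by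
  obtain ⟨a, -, ha⟩ := Cert.conj_xg hn
  have e1 := ha (C.R.neg β)
  rw [C.R.W_neg ((C.split F).ν_mem n hn), hβ, C.R.neg_neg, C.neg_val] at e1
  generalize a (C.R.neg β) = c at e1
  obtain ⟨s, hs⟩ := IsAlgClosed.exists_eq_mul_self (c : F)
  have hs0 : s ≠ 0 := by rintro rfl; exact c.ne_zero (by rw [hs, mul_zero])
  refine ⟨s⁻¹, inv_ne_zero hs0, ?_⟩
  have e2 := xg_neg_mul_xg' (C := C) β s⁻¹
  rw [← mul_assoc, ← e2, ← Cert.xg_neg, neg_neg, mul_assoc, mul_assoc, mul_inv_eq_iff_eq_mul.1 (e1 _), hs,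
    mul_inv_cancel_right₀ hs0, inv_inv]

theorem gen [IsAlgClosed F] (hζ : IsPrimitiveRoot (-1 : Fˣ) 2) {I : Type*} {h : I → D.group F}
    {f : I → Fin D.nroots → ℤ} (hl : ∀ i, Lab C (-1) (h i) (f i)) (len : Perm (Fin D.nroots) → ℕ)
    (hodd : ∀ u ∈ (C.split F).Up, Odd (orderOf u))
    (h1a : ∀ w ∈ C.S.W, w * w = 1 → (∀ r, (∀ i, Even (f i r)) → ∀ i, Even (f i (w r))) →
      (∃ r, (∀ i, Even (f i r)) ∧ C.R.Pos r ∧ ¬ C.R.Pos (w r)) → ∃ β, (∀ i, Even (f i β)) ∧ C.R.Pos β ∧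
        (w β = C.R.neg β ∧ len (C.R.τ β * w) < len w ∨ len (C.R.τ β * w * C.R.τ β) < len w))
    {t : D.group F} (ht : t * t = 1)
    (hbr : ∃ a ∈ (C.split F).Up, ∃ n ∈ (C.split F).N, ∃ u ∈ (C.split F).Up, t = a * n * u ∧
      ∀ i, Commute (h i) a ∧ Commute (h i) n ∧ Commute (h i) u) :
    ∃ g, (∀ i, Commute (h i) g) ∧ g * t * g⁻¹ ∈ (C.split F).N ∧
      ∀ r, (∀ i, Even (f i r)) → C.R.Pos r → C.R.Pos ((C.split F).ν (g * t * g⁻¹) r) := by
  set Z : Subgroup (D.group F) := Subgroup.centralizer (Set.range h) with hZ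
  have mZ : ∀ g, g ∈ Z ↔ ∀ i, Commute (h i) g := fun g => by
    rw [hZ, Subgroup.mem_centralizer_iff]
    exact ⟨fun H i => H _ ⟨i, rfl⟩, by rintro H _ ⟨i, rfl⟩; exact H i⟩
  have key : ∀ k, ∀ n ∈ (C.split F).N, n * n = 1 → n ∈ Z → len ((C.split F).ν n) = k →
      ∃ g ∈ Z, g * n * g⁻¹ ∈ (C.split F).N ∧
        ∀ r, (∀ i, Even (f i r)) → C.R.Pos r → C.R.Pos ((C.split F).ν (g * n * g⁻¹) r) := by
    intro k
    induction k using Nat.strong_induction_on with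
    | _ k ih =>
    intro n hn hnn hnZ hk
    by_cases hg : ∀ r, (∀ i, Even (f i r)) → C.R.Pos r → C.R.Pos ((C.split F).ν n r)
    · exact ⟨1, one_mem _, by simpa using hn, by simpa using hg⟩
    push Not at hg
    have hΨ : ∀ r, (∀ i, Even (f i r)) → ∀ i, Even (f i ((C.split F).ν n r)) := fun r hr i => by
      have h1 := (mZ n).1 hnZ i
      have h2 := even_ν (C := C) hζ (hl i) hn h1 (hr i)
      exact h2
    obtain ⟨β, hβ, hp, hcase⟩ := h1a ((C.split F).ν n) ((C.split F).ν_mem n hn) (ν_sq hn hnn)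
      hΨ hg
    rcases hcase with ⟨hneg, hlt⟩ | hlt
    · obtain ⟨b, hb, e⟩ := step_neg (C := C) hn hneg
      have hm : C.ng F β b⁻¹ ∈ (C.split F).N := Cert.ng_mem_N β.2 (inv_ne_zero hb)
      have hmZ : C.ng F β b⁻¹ ∈ Z := (mZ _).2 fun i => comm_ng (hl i) (hβ i) _
      have hxZ : C.xg F (D.neg β) (-b) ∈ Z := (mZ _).2 fun i => comm_xg_neg (hl i) (hβ i) _
      have haZ : C.xg F β (-b⁻¹) ∈ Z := (mZ _).2 fun i => comm_xg (hl i) (hβ i) _
      have ha : C.xg F β (-b⁻¹) ∈ (C.split F).Up := xg_mem_Up ((C.pos_iff β).1 hp) _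
      have hν : (C.split F).ν (C.ng F β b⁻¹ * n) = C.R.τ β * (C.split F).ν n := by
        rw [(C.split F).ν_mul _ hm _ hn, ν_ng_τ β (inv_ne_zero hb)]
      generalize C.xg F (D.neg β) (-b) = x at e hxZ
      generalize C.xg F β (-b⁻¹) = a at e haZ ha
      generalize C.ng F β b⁻¹ = m at e hm hmZ hν
      obtain ⟨h2, g, hgZ, hge⟩ := red hodd Z ha (mul_mem hm hn) haZ (by rw [← e, conj_mul, hnn]; group)
      obtain ⟨g', hg'Z, h3, h4⟩ := ih _ (hk ▸ hlt) (m * n) (mul_mem hm hn) h2 (mul_mem hmZ hnZ) (by rw [hν])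
      have e2 : g' * g * x * n * (g' * g * x)⁻¹ = g' * (m * n) * g'⁻¹ := by
        rw [← hge, ← e]; group
      exact ⟨g' * g * x, mul_mem (mul_mem hg'Z hgZ) hxZ, e2 ▸ h3, e2 ▸ h4⟩
    · have hm : C.ng F β 1 ∈ (C.split F).N := Cert.ng_mem_N β.2 one_ne_zero
      have hmZ : C.ng F β 1 ∈ Z := (mZ _).2 fun i => comm_ng (hl i) (hβ i) _
      have hν : (C.split F).ν (C.ng F β 1 * n * (C.ng F β 1)⁻¹) = C.R.τ β * (C.split F).ν n * C.R.τ β := by
        rw [(C.split F).ν_mul _ (mul_mem hm hn) _ (inv_mem hm), (C.split F).ν_mul _ hm _ hn, Split.ν_inv hm,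
          ν_ng_τ β one_ne_zero, C.R.τ_inv]
      generalize C.ng F β 1 = m at hm hmZ hν
      obtain ⟨g', hg'Z, h3, h4⟩ := ih _ (hk ▸ hlt) (m * n * m⁻¹) (mul_mem (mul_mem hm hn) (inv_mem hm))
        (by rw [conj_mul, hnn]; group) (mul_mem (mul_mem hmZ hnZ) (inv_mem hmZ)) (by rw [hν])
      have e2 : g' * m * n * (g' * m)⁻¹ = g' * (m * n * m⁻¹) * g'⁻¹ := by group
      exact ⟨g' * m, mul_mem hg'Z hmZ, e2 ▸ h3, e2 ▸ h4⟩
  obtain ⟨a, ha, n, hn, u, hu, e, hcm⟩ := hbr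
  have haZ : a ∈ Z := (mZ _).2 fun i => (hcm i).1
  have hnZ : n ∈ Z := (mZ _).2 fun i => (hcm i).2.1
  have huZ : u ∈ Z := (mZ _).2 fun i => (hcm i).2.2
  have e1 : u * t * u⁻¹ = u * a * n := by rw [e]; group
  obtain ⟨h2, g, hgZ, hge⟩ := red hodd Z (mul_mem hu ha) hn (mul_mem huZ haZ)
    (by rw [← e1, conj_mul, ht]; group)
  obtain ⟨g', hg'Z, h3, h4⟩ := key _ n hn h2 hnZ rfl
  have e2 : g' * g * u * t * (g' * g * u)⁻¹ = g' * n * g'⁻¹ := by
    rw [← hge, ← e1]; group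
  refine ⟨g' * g * u, (mZ _).1 (mul_mem (mul_mem hg'Z hgZ) huZ), ?_⟩
  rw [e2]
  exact ⟨h3, h4⟩

end gen

theorem prim : IsPrimitiveRoot (-1 : Kˣ) 2 := by
  have h3 : CharP K 3 := inferInstance
  have : IsPrimitiveRoot (-1 : K) 2 := IsPrimitiveRoot.neg_one 3 (by norm_num)
  exact IsPrimitiveRoot.coe_units_iff.1 (by simpa using this)

theorem t1 (h0 : T0Stmt) (h1a : T1aStmt) : T1Stmt := by
  intro I h f hl t ht hc
  obtain ⟨hbr, -, hodd⟩ := h0 I h f hl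
  have hb := hbr t hc
  have ha := h1a (fun r => ∀ i, Even (f i r)) (fun r hr i => even_neg' (hl i).1 (hr i))
    (fun r s hr hs i => even_τ' (hl i).1 (hr i) (hs i))
  have hg := gen (C := C8) prim hl (lenP fun r => ∀ i, Even (f i r)) hodd ha ht hb
  with_reducible exact hg

end Cfsg.Agent.H5.E83T1
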