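import Cfsg.Agent.H2.FXDefs

/-! The Hecke algebra computation for `L₂(13)` with respect to a dihedral group of order 26. -/

set_option autoImplicit false

namespace Cfsg.Agent.H5.FXHecke

open Cfsg.Agent.H2FX Mathlib.Tactic.NoncommRing

theorem core {A : Type} [Ring A] {c E T : A} (Ec : E * c = c * E) (Tc : T * c = c * (c * T))
    (c3 : c * (c * c) = 1) (EE : E * E = 26 * E) (ET : E * T = 26 * T) (TE : T * E = 26 * T)
    (TT : T * T = 26 * (52 * E + 8 * ((1 + c + c ^ 2) * T))) {a : A}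
    (ha : a = (130 - 52 * c - 52 * c ^ 2) * E + (9 + 16 * c - 12 * c ^ 2) * T) :
    a * a = 9464 * a ∧ a * (c - c ^ 2) + (c - c ^ 2) * a = 364 * ((c - c ^ 2) * E) ∧
      E * a = 26 * a ∧ a * E = 26 * a ∧ E * (c - c ^ 2) = (c - c ^ 2) * E := by
  have Ec' : ∀ x, E * (c * x) = c * (E * x) := fun x => by rw [← mul_assoc, Ec, mul_assoc]
  have Tc' : ∀ x, T * (c * x) = c * (c * (T * x)) := fun x => by
    rw [← mul_assoc, Tc, mul_assoc, mul_assoc]
  have c3' : ∀ x, c * (c * (c * x)) = x := fun x => by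
    rw [← mul_assoc c c x, ← mul_assoc, c3, one_mul]
  subst ha
  refine ⟨?_, ?_, ?_, ?_, ?_⟩ <;>
  · simp only [pow_two, add_mul, mul_add, sub_mul, mul_sub, mul_assoc, nat_lit_mul_eq_nsmul,
      smul_mul_assoc, mul_smul_comm, one_mul, Ec, Ec', Tc, Tc', c3', EE, ET, TE, TT, smul_add,
      smul_sub]
    try module

section
variable {A : Type} [Ring A] {φ : S13 →* A}

theorem hecke' (R : Rel φ) (hk : hE φ * φ gs * hE φ * φ gs * hE φ =
    52 * hE φ + 8 * ((1 + φ gc + φ gc ^ 2) * (hE φ * φ gs * hE φ))) :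
    hA φ * hA φ = 9464 * hA φ ∧ hA φ * hM φ + hM φ * hA φ = 364 * (hM φ * hE φ) ∧
      hE φ * hA φ = 26 * hA φ ∧ hA φ * hE φ = 26 * hA φ ∧ hE φ * hM φ = hM φ * hE φ := by
  have EE' : ∀ x, hE φ * (hE φ * x) = 26 * (hE φ * x) := fun x => by
    rw [← mul_assoc, R.EE, mul_assoc]
  have n26 : ∀ x y : A, x * (26 * y) = 26 * (x * y) := fun x y => by
    rw [nat_lit_mul_eq_nsmul, nat_lit_mul_eq_nsmul, mul_smul_comm]
  refine core R.cE.symm ?_ (by rw [← R.c3]; noncomm_ring) R.EE ?_ ?_ ?_ rfl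
  · rw [mul_assoc, ← R.cE, ← mul_assoc, mul_assoc (hE φ), R.sc, pow_two, ← mul_assoc, ← mul_assoc,
      ← R.cE, mul_assoc (φ gc), ← R.cE]
    simp only [mul_assoc]
  · rw [mul_assoc, EE']
  · rw [mul_assoc, R.EE, n26]
  · rw [← hk]
    simp only [mul_assoc, EE', n26]

end

theorem hecke : HeckeStmt := fun _ _ _ R hk => hecke' R hk

theorem val : ValStmt := by
  intro A _ φ L R hc h1 h2
  have key : ∀ x, x * hE φ = hE φ * x →
      L (x * (hE φ * φ gs * hE φ)) = 26 * L (x * φ gs * hE φ) := fun x hx => by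
    rw [← mul_assoc, ← mul_assoc, hx, mul_assoc, mul_assoc, hc, mul_assoc, mul_assoc, mul_assoc,
      R.EE, nat_lit_mul_eq_nsmul, mul_smul_comm, mul_smul_comm, map_nsmul]
    simp
  have s3 : φ gc * φ gs * φ gc = φ gs := by rw [R.cs, mul_assoc, ← pow_succ, R.c3, mul_one]
  have rot : ∀ x, L (φ gc * x * hE φ) = L (x * φ gc * hE φ) := fun x => by
    rw [mul_assoc, hc, mul_assoc, ← R.cE, mul_assoc]
  have k2 : L (φ gc ^ 2 * φ gs * hE φ) = L (φ gs * hE φ) := by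
    rw [pow_two, mul_assoc (φ gc), rot, s3]
  have k1 : L (φ gc * φ gs * hE φ) = L (φ gs * hE φ) := by
    rw [rot, R.sc, k2]
  have e0 := key 1 (by simp)
  have e1 := key (φ gc) R.cE
  have e2 := key (φ gc ^ 2) (by rw [pow_two, mul_assoc, R.cE, ← mul_assoc, R.cE, mul_assoc])
  rw [one_mul, one_mul] at e0
  rw [k1] at e1
  rw [k2] at e2
  have e : hA φ = 130 • hE φ - 52 • (φ gc * hE φ) - 52 • (φ gc ^ 2 * hE φ) +
      (9 • (hE φ * φ gs * hE φ) + 16 • (φ gc * (hE φ * φ gs * hE φ)) -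
        12 • (φ gc ^ 2 * (hE φ * φ gs * hE φ))) := by
    rw [hA]
    simp only [add_mul, sub_mul, mul_assoc, nat_lit_mul_eq_nsmul, smul_mul_assoc]
  rw [e]
  simp only [map_add, map_sub, map_nsmul, h1, h2, e0, e1, e2]
  simp only [nsmul_eq_mul]
  push_cast
  ring

end Cfsg.Agent.H5.FXHecke
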