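import Cfsg.Agent.H73.GagDefs
import Cfsg.Agent.S0689

/-! Transitive linear groups of order prime to the characteristic with `p`-group stabilisers. -/

set_option autoImplicit false

namespace Cfsg.Agent.H5.GagR

open Subgroup Cfsg Cfsg.Agent.H73.Gag

universe u

theorem eq_of_pow {p q n : ℕ} (hp : p.Prime) (hq : q.Prime) (h : p ^ n = q ^ 2) : p = q :=
  ((Nat.prime_dvd_prime_iff_eq hq hp).1
    (hq.dvd_of_dvd_pow (h ▸ dvd_pow_self q two_ne_zero))).symm

theorem aux {p n : ℕ} {H V : Type u} [Group H] [AddCommGroup V] [DistribMulAction H V]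
    [Fact p.Prime] [Module (ZMod p) V] (h : TL p n H V) (hp : ¬ p ∣ Nat.card H) : Shape p H := by
  have := h.srm.fin
  have free : ∀ (g : H) (v : V), v ≠ 0 → g • v = v → g = 1 := fun g v hv e => by
    by_contra hg
    exact hv (h.srm.fpf hg (fun hd => hp (hd.trans (orderOf_dvd_natCard g))) e)
  have : SMulCommClass H (ZMod p) V :=
    ⟨fun g c v => ZMod.map_smul (DistribMulAction.toAddEquiv V g) c v⟩
  let φ : H →* V ≃ₗ[ZMod p] V := DistribMulAction.toModuleAut (ZMod p) V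
  have hφ : ∀ g v, φ g v = g • v := fun _ _ => rfl
  have := h.srm.nt
  have inj : Function.Injective φ := (injective_iff_map_eq_one φ).2 fun g hg => by
    obtain ⟨v, hv⟩ := exists_ne (0 : V)
    exact free g v hv (by rw [← hφ, hg]; rfl)
  let e : H ≃* φ.range := φ.ofInjective inj
  have key := S0689.result φ.range (fun v w hv hw => by
    obtain ⟨g, hg⟩ := h.tl.trans v w hv hw
    refine ⟨⟨φ g, g, rfl⟩, hg, ?_⟩
    rintro ⟨_, g', rfl⟩ hg'
    have h1 : g' • v = w := hg'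
    have : g⁻¹ * g' = 1 := free _ v hv (by rw [mul_smul, h1, ← hg, inv_smul_smul])
    rw [inv_mul_eq_one] at this
    subst this
    rfl) (fun hs => h.ns (Group.isSolvable_of_isSolvable_injective (f := e.toMonoidHom) e.injective))
  rw [h.card] at key
  rcases key with ⟨h1, ⟨i⟩⟩ | ⟨h1, ⟨i⟩⟩ | ⟨h1, ⟨i⟩⟩
  · exact Or.inr (Or.inr (Or.inr (Or.inl ⟨eq_of_pow h.srm.pp (by norm_num) h1, ⟨e.trans i⟩⟩)))
  · exact Or.inr (Or.inr (Or.inr (Or.inr (Or.inl
      ⟨eq_of_pow h.srm.pp (by norm_num) h1, ⟨e.trans i⟩⟩))))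
  · exact Or.inr (Or.inr (Or.inr (Or.inr (Or.inr
      ⟨eq_of_pow h.srm.pp (by norm_num) h1, ⟨e.trans i⟩⟩))))

theorem reg : RegStmt.{u} := by
  intro p n H V _ _ _ h hp
  have := Fact.mk h.srm.pp
  let _ : Module (ZMod p) V := AddCommGroup.zmodModule h.srm.pV
  exact aux h hp

end Cfsg.Agent.H5.GagR
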