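import Cfsg.Agent.H98.GbG

/-! Base points of a union of blocks fixed by a linear character form a union of blocks of the
kernel that meets none of its conjugates. -/

set_option autoImplicit false

namespace Cfsg.Agent.H5.GbSpla

open Cfsg Cfsg.Agent.H98.GB
open scoped ComplexConjugate

universe u

section
variable {G : Type u} [Group G] {K : Subgroup G} [hK : K.Normal]

theorem cj_eq (x : G) (f : K → ℂ) : cj K x f = fun k => f ((MulAut.conjNormal x).symm k) :=
  funext fun k => by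
    rw [cj, ← MulAut.conjNormal_symm_apply]
    exact Subtype.val_injective.extend_apply _ _ _

theorem cj_irr (x : G) (θ : IrrCharacter K) : cj K x θ.1 = (H22.cjIrr K x θ).1 := by
  rw [cj_eq]
  funext k
  rw [H22.cjIrr_apply]
  exact congrArg _ (Subtype.ext (MulAut.conjNormal_symm_apply x k))

theorem cj_reg (p : ℕ) (x : G) (f : K → ℂ) :
    cj K x (pRegularPart p f) = pRegularPart p (cj K x f) := by
  rw [cj_eq, cj_eq]
  funext k
  simp only [pRegularPart, IsPRegular, MulEquiv.orderOf_eq]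
  congr

theorem inner_cj [Fintype K] (x : G) (f f' : K → ℂ) :
    classInner (cj K x f) (cj K x f') = classInner f f' := by
  rw [cj_eq, cj_eq, classInner, classInner]
  exact congrArg _ (Equiv.sum_comp (MulAut.conjNormal x : K ≃* K).symm.toEquiv
    fun k => f k * conj (f' k))

end

theorem reg_class {G : Type u} [Group G] (p : ℕ) {f : G → ℂ} (hf : IsClassFunction G f) :
    IsClassFunction G (pRegularPart p f) := fun g h => by
  have : orderOf (h * g * h⁻¹) = orderOf g := (MulAut.conj h).orderOf_eq g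
  simp only [pRegularPart, IsPRegular, this, hf g h]
  congr

theorem inner_reg_ne {G : Type u} [Group G] [Fintype G] {p : ℕ} (hp : p.Prime) {f : G → ℂ}
    (hf : f 1 ≠ 0) : classInner (pRegularPart p f) f ≠ 0 := by
  classical
  have h : ∑ g, pRegularPart p f g * conj (f g) =
      ((∑ g, if IsPRegular p g then Complex.normSq (f g) else 0 : ℝ) : ℂ) := by
    rw [Complex.ofReal_sum]
    refine Finset.sum_congr rfl fun g _ => ?_
    by_cases hg : IsPRegular p g <;> simp [pRegularPart, hg, Complex.mul_conj]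
  rw [classInner, h]
  refine mul_ne_zero (inv_ne_zero (Nat.cast_ne_zero.mpr Nat.card_pos.ne'))
    (Complex.ofReal_ne_zero.mpr (ne_of_gt (Finset.sum_pos' (fun g _ => ?_) ⟨1, Finset.mem_univ _, ?_⟩)))
  · split_ifs
    exacts [Complex.normSq_nonneg _, le_rfl]
  · rw [if_pos (show IsPRegular p (1 : G) from by
      rw [IsPRegular, orderOf_one]; exact hp.not_dvd_one)]
    exact Complex.normSq_pos.mpr hf

theorem spla (hO : ONEStmt.{u}) (hC : CONCStmt.{u}) (hS : OSIStmt.{u}) : SPLaStmt.{u} := by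
  intro G _ _ p hp M hM l X hX t hB
  have : Fintype l.ker := Fintype.ofFinite _
  obtain ⟨-, c2, c3⟩ := hC G l
  have h1 : ∀ χ ∈ X, av l.ker 1 (t χ).1 = χ.1 := fun χ h =>
    (hO G l χ (hB.1 χ h).1 _ (hB.1 χ h).2).1
  have orth : ∀ χ ∈ X, ∀ ψ ∈ X, ∀ x, x ∉ l.ker →
      classInner (cj l.ker x (pRegularPart p (t χ).1)) (t ψ).1 = 0 := fun χ hχ ψ hψ =>
    c2 _ _ (reg_class p (H17.irr_isClassFunction _)) (H17.irr_isClassFunction _) fun j => by
      rw [← c3, ← c3, hB.2 χ hχ ψ hψ, h1 χ hχ, h1 ψ hψ]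
  refine ⟨(hS _ p M hM _).2 ?_, ?_⟩
  · rintro _ ⟨χ, hχ, rfl⟩ ψ hψ
    by_cases h : ∃ χ' ∈ X, H22.Over l.ker χ'.1 ψ.1
    · obtain ⟨χ', h2, h3⟩ := h
      obtain ⟨g, hg⟩ := H22.exists_cjIrr_of_over l.ker h3 (hB.1 χ' h2).2
      have h4 := orth χ hχ χ' h2 g fun e => hψ ⟨χ', h2, by rw [← hg, H22.cjIrr_of_mem _ e]⟩
      rwa [← hg, ← cj_irr, inner_cj] at h4
    · refine (hS _ p M hM _).1 (H17.lamClosed_of_isPBlock hM.2.1 ⟨t χ, rfl⟩) _
        (H17.mem_blockOf_self hM.2.1 _) ψ fun e => h ?_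
      obtain ⟨χ', h2, h3⟩ := (H22.covers_blockOf hM.2.1 (hB.1 χ hχ).2).exists_over hM.2.1 ⟨χ, rfl⟩
        ⟨t χ, rfl⟩ e
      exact ⟨χ', H22.blockOf_subset hM.2.1 hX hχ h2, h3⟩
  · rintro x hx _ ⟨χ, hχ, rfl⟩ _ ⟨ψ, hψ, rfl⟩ e
    have h2 := orth χ hχ ψ hψ x hx
    rw [cj_reg, e] at h2
    exact inner_reg_ne hp.out (H11.irr_apply_one_ne_zero (t ψ).2) h2

end Cfsg.Agent.H5.GbSpla
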