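import Cfsg.Agent.H98.GbL
import Cfsg.Agent.H11.Irr

/-! Project GB (S4536): the twisted vacuum (piece TH2b). -/

set_option autoImplicit false
open Cfsg Finset
open scoped ComplexConjugate MatrixGroups Kronecker

namespace Cfsg.Agent.H5.GbTh2b

open Cfsg.Agent.H98.GB

universe u

variable {F : Type u} [Field F] [Fintype F] [DecidableEq F]

theorem ip_smul_l {η : Fˣ →* ℂˣ} (H : Hall η) (n : ℕ) (c : ℂ) (x z : H.A) :
    H.ip n (c • x) z = c * H.ip n x z := by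
  simp only [Hall.ip, classInner, map_smul, Pi.smul_apply, smul_eq_mul, Finset.mul_sum]
  exact Finset.sum_congr rfl fun g _ => by ring

theorem ip_sum_l {η : Fˣ →* ℂˣ} (H : Hall η) (n : ℕ) {ι : Type} (s : Finset ι) (x : ι → H.A)
    (z : H.A) : H.ip n (∑ i ∈ s, x i) z = ∑ i ∈ s, H.ip n (x i) z := by
  simp only [Hall.ip, classInner, map_sum, Finset.sum_apply, Finset.sum_mul, Finset.mul_sum]
  exact Finset.sum_comm

theorem ip_zero_r {η : Fˣ →* ℂˣ} (H : Hall η) (n : ℕ) (x : H.A) : H.ip n x 0 = 0 := by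
  simp [Hall.ip, classInner]

theorem av_zero {G : Type u} [Group G] [Fintype G] (K : Subgroup G) (l : G →* ℂˣ) :
    av K l (0 : K → ℂ) = 0 := by
  funext g
  have : ∀ y, extendByZero K (0 : K → ℂ) y = 0 := fun y => by
    unfold extendByZero
    by_cases h : ∃ a : K, (a : G) = y
    · obtain ⟨a, rfl⟩ := h
      rw [Subtype.val_injective.extend_apply]; rfl
    · rw [Function.extend_apply' _ _ _ h]; rfl
  simp [av, this]

theorem reg_zero {G : Type u} [Group G] (p : ℕ) : pRegularPart p (0 : G → ℂ) = 0 := by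
  funext g; simp [pRegularPart]

/-- the power sums of an empty component kill the Schur function -/
theorem D_pp (hH : HOOKStmt.{u}) (hY : SYSStmt.{u}) (C : Ctx F) {k0 : ℕ} (hk : k0 ≤ C.n0)
    {Λ : C.Lb} (hlab : C.IsLab k0 Λ) {φ : C.Φ} (hφ : Λ φ = range C.N) {r : ℕ} (hr : 0 < r)
    (hrk : C.dg φ * r ≤ k0) : C.H.D (C.dg φ * r) (C.pp φ r) (sL C.N C.pp Λ) = 0 := by
  obtain ⟨-, hs, hg⟩ := hY F C
  rw [hH F 1 C.H C.Φ C.dg C.n0 C.N C.pp (hs _) (hg _) Λ hlab.1 (hlab.2.trans_le hk) φ r hr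
    (hrk.trans hk)]
  refine Finset.sum_eq_zero fun x hx => ?_
  rw [Finset.mem_filter, hφ, Finset.mem_range, Finset.mem_range] at hx
  omega

theorem ip_ee (hF : FOCKStmt.{u}) (hH : HOOKStmt.{u}) (hY : SYSStmt.{u}) (C : Ctx F) {k0 : ℕ}
    (hk : k0 ≤ C.n0) {Λ : C.Lb} (hlab : C.IsLab k0 Λ) {φ : C.Φ} (hφ : Λ φ = range C.N) {i : ℕ}
    (hi : 0 < i) (hik : C.dg φ * i ≤ k0) (z : C.H.A) :
    C.H.ip k0 (ee (C.pp φ) i * z) (sL C.N C.pp Λ) = 0 := by
  obtain ⟨i, rfl⟩ : ∃ j, i = j + 1 := ⟨i - 1, by omega⟩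
  unfold ee
  rw [nw, smul_mul_assoc, ip_smul_l, Finset.sum_mul, ip_sum_l]
  refine mul_eq_zero_of_right _ (Finset.sum_eq_zero fun t _ => ?_)
  rw [smul_mul_assoc, smul_mul_assoc, ip_smul_l, mul_assoc]
  refine mul_eq_zero_of_right _ ?_
  have ht : C.dg φ * (t + 1) ≤ k0 :=
    (Nat.mul_le_mul_left _ (by have := t.2; omega)).trans hik
  obtain ⟨k', rfl⟩ := Nat.exists_eq_add_of_le ht
  rw [(hF F 1 C.H).adj ((hY F C).1 φ (t + 1) (Nat.succ_pos _)).1,
    D_pp hH hY C hk hlab hφ (Nat.succ_pos _) ht, ip_zero_r]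

theorem th2b (hF : FOCKStmt.{u}) (hD : DECStmt.{u}) (hO : ONEStmt.{u}) (hV : VAC0Stmt.{u})
    (hS : SUPPStmt.{u}) (hX : XGStmt.{u}) (_hN : NWEHStmt.{u}) (hH : HOOKStmt.{u})
    (hY : SYSStmt.{u}) (hI : IRRStmt.{u}) (hT : TWISTStmt.{u}) (hE : ETAStmt.{u})
    (hL : LABStmt.{u}) (hP : PIMStmt.{u}) (h0 : TH0aStmt.{u}) : TH2bStmt.{u} := by
  intro F _ _ _ C c hq hu HH In P tws k0 hk Λ hlab htw hin hreg
  obtain ⟨hHg, hirr, -⟩ := hI F C k0 hk Λ hlab
  let χ : IrrCharacter (GL (Fin k0) F) := ⟨C.sC Λ k0, hirr⟩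
  have hfix : lm (dl (C.eta c) k0) χ.1 = χ.1 := by
    obtain ⟨T, -, -, h3⟩ := hT F C c hq
    have := h3 Λ k0
    rw [htw] at this
    exact this
  obtain ⟨θ, hθ⟩ := H22.exists_under (dl (C.eta c) k0).ker χ
  obtain ⟨o1, -, -, o4⟩ := hO _ (dl (C.eta c) k0) χ hfix θ hθ
  have hord : ¬ C.p ∣ orderOf (dl (C.eta c) k0) := by
    rcases Nat.eq_zero_or_pos k0 with h | h
    · subst h
      have : dl (C.eta c) 0 = 1 := by
        ext g
        rw [Subsingleton.elim g 1, map_one, map_one]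
      rw [this, orderOf_one, Nat.dvd_one]
      exact C.hp.ne_one
    · rw [(hE F C).2.2.2.2.1 c k0 hq h]
      exact ((hL F C).uu_iff c).1 hu
  have hev : ∀ j, (HH j).ev ((HH j).sg k0
      (av (dl (C.eta c) k0).ker (dl (C.eta c) k0 ^ j) θ.1)) =
      Pi.single k0 (av (dl (C.eta c) k0).ker (dl (C.eta c) k0 ^ j) θ.1) := fun j =>
    (HH j).ev_sg (by rw [dl_pow]; exact (o4 j).1.1)
  have hhg : ∀ j, (HH j).Hg k0 ((HH j).sg k0
      (av (dl (C.eta c) k0).ker (dl (C.eta c) k0 ^ j) θ.1)) := fun j n hn => by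
    rw [hev, Pi.single_eq_of_ne hn]
  refine ⟨fun j => (HH j).sg k0 (av (dl (C.eta c) k0).ker (dl (C.eta c) k0 ^ j) θ.1),
    ?_, hhg, ?_, ?_, ?_, ?_⟩
  · intro n
    by_cases hn : n = k0
    · subst hn
      exact ⟨θ.1, H11.isGen_of_irr θ.2, fun j => by rw [hev, Pi.single_eq_same]⟩
    · exact ⟨0, H11.isGen_zero, fun j => by rw [hev, Pi.single_eq_of_ne hn, av_zero]⟩
  · intro j
    rw [Hall.ip, hev, Pi.single_eq_same]
    exact (o4 j).2.1
  · intro j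
    obtain ⟨T, -, h2, -⟩ := hP F _ (HH j) C.p C.hp C.hpF
    refine (HH j).inj (funext fun n => ?_)
    rw [h2, hev]
    by_cases hn : n = k0
    · subst hn
      rw [Pi.single_eq_same]
      exact hV _ C.p _ hord χ hfix hreg θ hθ j
    · rw [Pi.single_eq_of_ne hn, reg_zero]
  · intro φ k j hφ hkpos
    have hd := (hL F C).dg_pos φ
    refine (hX F _ (HH j) (C.dg φ) k (fun i => P φ i j) hd
      (fun i hi _ => tws.pr φ i j hφ hi)).1 k0 _ (hhg j) ?_ k hkpos le_rfl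
    intro i hi _
    refine (HH j).inj (funext fun n => ?_)
    rw [(hF F _ (HH j)).ev_D, map_zero, Pi.zero_apply]
    by_cases hn : C.dg φ * i + n = k0
    · subst hn
      rw [hev, Pi.single_eq_same]
      funext w
      refine (hD _).2.1 {χ₁ | χ₁.1 ≠ C.eC φ i} {χ₁ | χ₁.1 = C.eC φ i} _ _ ?_ (tws.eE φ i j hφ)
        (Set.disjoint_left.2 fun _ h1 h2 => h1 h2)
      refine (hS F _ _ _ rfl χ _ (o4 j).1.2 _ Set.univ ?_).1 w
      intro χ₁ χ₂ hne
      refine ⟨fun he => hne ?_, trivial⟩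
      have hz : C.H.ev (C.H.sg n χ₂.1) = Pi.single n χ₂.1 := C.H.ev_sg fun x g => by
        rw [dl_one, H11.isClassFunction_of_irr χ₂.2 g x]; simp
      have := ip_ee hF hH hY C hk hlab (hin φ hφ) hi (Nat.le_add_right _ _) (C.H.sg n χ₂.1)
      rw [Hall.ip, (hF F 1 C.H).ev_mul_hg _ rfl (h0 F C φ i).1, hz, Pi.single_eq_same] at this
      rw [he]
      exact this
    · rw [hhg j _ hn]
      funext w
      simp [perp1, res, classInner]
  · rw [hev]
    funext n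
    by_cases hn : n = k0
    · subst hn
      have h1 : dl (C.eta c) n ^ 0 = 1 := by ext g; simp
      rw [Pi.single_eq_same, h1, o1]
      rfl
    · rw [Pi.single_eq_of_ne hn, hHg n hn]

end Cfsg.Agent.H5.GbTh2b
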