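import Cfsg.Agent.H50.L81Defs

/-! Project L81 (S5921): the module generated by a highest weight vector. -/

set_option autoImplicit false

namespace Cfsg.Agent.H5.L81Gen

open Module Finset Cfsg.Agent.H82 Cfsg.Agent.H50.SL2S Cfsg.Agent.H50.E83 Cfsg.Agent.H50.L81
open scoped MatrixGroups

theorem gen (hP : ParStmt) (hA : AopStmt) : GenStmt := by
  intro p W _ _ _ ρ h1 e e0 e40 v hv b1 b2
  obtain ⟨-, -, -, -, -, -, hzy, hh', -⟩ := hP.2.2.2 p
  obtain ⟨a1, -, -, a4, a5, a6, -⟩ := hA p W ρ h1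
  obtain ⟨hU, hW⟩ := hv
  let Y : Submodule K W := ⨆ μ, ⨆ (_ : μ ≠ (zy p : K) ^ 0), Module.End.eigenspace (ρ (t0 p)) μ
  have hY : ∀ d, ¬ 40 ∣ d → Wt ρ p d ≤ Y := fun d hd => by
    refine le_iSup₂_of_le ((zy p : K) ^ d) (fun h => hd ?_) le_rfl
    rw [pow_zero, ← Units.val_pow_eq_pow_val, Units.val_eq_one] at h
    exact (hzy.pow_eq_one_iff_dvd d).1 h
  have hB : ∀ b ∈ BB F, ∃ c : K, ρ b v = c • v := fun b hb => by
    obtain ⟨k, hk⟩ := hh' _ (ne_zero_of_mem_BB hb)
    refine ⟨((zy p : K) ^ e) ^ k, ?_⟩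
    rw [eq_hh_mul_uu hb, map_mul, Module.End.mul_apply, hU _ (uu_mem _), hk, map_pow]
    have hw : ρ (t0 p) v = (zy p : K) ^ e • v := Module.End.mem_eigenspace_iff.1 hW
    clear hk
    induction k with
    | zero => simp
    | succ k ih => rw [pow_succ', Module.End.mul_apply, ih, map_smul, hw, smul_smul, pow_succ]
  have hBop : ∀ c ≤ 80, Bop ρ p c v ∈ Y := fun c hc => by
    by_cases hd : 40 ∣ e + 80 - c
    · have : c = e ∨ c = e + 40 := by omega
      rcases this with rfl | rfl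
      · rw [b1]; exact Y.zero_mem
      · rw [b2]; exact Y.zero_mem
    · refine hY _ hd (a6 c hc _ v ?_)
      rw [show e + 80 - c + c = e + 40 + 40 by omega, a4, a4]
      exact hW
  have hg : ∀ g, ρ g v ∈ Y := fun g => by
    by_cases h0 : g 0 0 = 0
    · obtain ⟨c, hc⟩ := hB ((ww F)⁻¹ * g) (by
        rw [mem_BB, SL2_mul_apply, SL2_inv_10, SL2_inv_11, h0, ent2.1]; ring)
      rw [← mul_inv_cancel_left (ww F) g, map_mul, Module.End.mul_apply, hc, map_smul]
      exact Y.smul_mem _ (hY _ (by omega) (a5 e e40.le v hW))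
    · have hl : ∀ t : F, ww F * uu t * (ww F)⁻¹ = ll (-t) := fun t => by
        apply SL2_ext <;> simp [ent, ent2]
      obtain ⟨c, hc⟩ := hB (ll (-(g 1 0 / g 0 0)) * g) (by
        rw [mem_BB, SL2_mul_apply, ll_10, ll_11]; field_simp; ring)
      have e1 : g = ww F * uu (-(g 1 0 / g 0 0)) * (ww F)⁻¹ * (ll (-(g 1 0 / g 0 0)) * g) := by
        rw [hl, ll_neg, inv_mul_cancel_left]
      rw [e1, map_mul, Module.End.mul_apply, hc, map_smul, map_mul, map_mul, a1, Finset.mul_sum,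
        Finset.sum_mul, LinearMap.sum_apply]
      refine Y.smul_mem _ (Y.sum_mem fun c hc => ?_)
      rw [mul_smul_comm, smul_mul_assoc, LinearMap.smul_apply]
      exact Y.smul_mem _ (hBop c (by have := mem_range.1 hc; omega))
  refine ⟨Submodule.span K (Set.range fun g => ρ g v), fun g w hw => ?_,
    Submodule.subset_span ⟨1, by simp⟩, ?_⟩
  · refine Submodule.span_induction (p := fun w _ => ρ g w ∈ Submodule.span K _) ?_ ?_ ?_ ?_ hw
    · rintro _ ⟨k, rfl⟩
      exact Submodule.subset_span ⟨g * k, by simp⟩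
    · rw [map_zero]; exact Submodule.zero_mem _
    · intro x y _ _ hx hy
      rw [map_add]; exact Submodule.add_mem _ hx hy
    · intro a x _ hx
      rw [map_smul]; exact Submodule.smul_mem _ _ hx
  · have hN : Submodule.span K (Set.range fun g => ρ g v) ≤ Y :=
      Submodule.span_le.2 (by rintro _ ⟨g, rfl⟩; exact hg g)
    exact disjoint_iff.1
      ((Module.End.eigenspaces_iSupIndep (ρ (t0 p)) ((zy p : K) ^ 0)).symm.mono_left hN)

end Cfsg.Agent.H5.L81Gen
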