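import Cfsg.Agent.H11.CyLp

/-! Project CY, chapter LP: the centraliser of a line has order two. -/

set_option autoImplicit false

namespace Cfsg.Agent.H5.LpN45

open Subgroup MulAction Cfsg.Agent.H11.Cy Cfsg.Agent.H11.Cy.Lp
open Cfsg.Agent.H11.EL (Nm Ct SC OS)

theorem n45 : N45Stmt := by
  intro G _ _ Ω _ _ p A st x y h t hsc O hO
  classical
  obtain ⟨htK, ht2, -⟩ := hsc
  have ep := h.mc.ep
  have fx : ∀ u, ∀ c ∈ Ct (A u), c • u = u := fun u c hc =>
    (ep.nA u c).1 (centralizer_le_normalizer _ hc)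
  have e1 : Kl A x y ≤ Ct (A x) := centralizer_le (SetLike.coe_subset_coe.2 le_sup_left)
  have e2 : Kl A x y ≤ Ct (A y) := centralizer_le (SetLike.coe_subset_coe.2 le_sup_right)
  have hidx : (O.subgroupOf (Ct (A x))).index = 2 := by
    have h1 := (O.subgroupOf (Ct (A x))).index_mul_card
    rw [Nat.card_congr (subgroupOfEquivOfLe hO.ct).toEquiv, ← hO.card] at h1
    exact Nat.eq_of_mul_eq_mul_right Nat.card_pos h1
  have htO : t ∉ O := by
    intro h1
    have h2 := orderOf_dvd_natCard O h1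
    rw [ht2] at h2
    exact (Nat.not_even_iff_odd.2 hO.odd) (even_iff_two_dvd.2 h2)
  have hor : ∀ c ∈ Ct (A x), c ∈ O ∨ c * t ∈ O := by
    intro c hc
    by_cases h1 : c ∈ O
    · exact Or.inl h1
    · right
      have := (mul_mem_iff_of_index_two hidx (a := ⟨c, hc⟩) (b := ⟨t, e1 htK⟩)).2
        (iff_of_false h1 htO)
      exact this
  have trO : ∀ w, w ≠ x → ∃ o ∈ O, o • y = w := fun w hw => by
    obtain ⟨c, hc, e⟩ := h.ctr x y w h.xy.symm hw
    rcases hor c hc with h2 | h2
    · exact ⟨c, h2, e⟩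
    · exact ⟨c * t, h2, by rw [mul_smul, fx y t (e2 htK), e]⟩
  have inK : ∀ w, w ≠ x → ∀ c ∈ Ct (A x), c • w = w → c ∈ Kl A x w := fun w hw c hc e =>
    ep.eps x w hw.symm c ⟨fx x c hc, e⟩ hc
  have hK : Kl A x y = zpowers t := by
    by_contra hne
    have hex : ∃ k ∈ Kl A x y, k ∈ O ∧ k ≠ 1 := by
      have h1 : ¬ Kl A x y ≤ zpowers t := fun h1 => hne (le_antisymm h1 (zpowers_le.2 htK))
      obtain ⟨c, hc, hc'⟩ := SetLike.not_le_iff_exists.1 h1
      rcases hor c (e1 hc) with h2 | h2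
      · exact ⟨c, hc, h2, fun h3 => hc' (h3 ▸ one_mem _)⟩
      · refine ⟨c * t, mul_mem hc htK, h2, fun h3 => hc' ?_⟩
        rw [eq_inv_of_mul_eq_one_left h3]
        exact inv_mem (mem_zpowers t)
    obtain ⟨k, hkK, hkO, hk1⟩ := hex
    have key : ∀ w, w ≠ x → ∃ a, a ∈ A x ∧ a * k ≠ 1 ∧ a * k ∈ Kl A x w := by
      intro w hw
      obtain ⟨o, ho, e⟩ := trO w hw
      refine ⟨_, hO.ab o ho k hkO, ?_, ?_⟩
      · rw [inv_mul_cancel_right]
        intro h3
        apply hk1
        calc k = o⁻¹ * (o * k * o⁻¹) * o := by group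
          _ = 1 := by rw [h3]; group
      · rw [inv_mul_cancel_right]
        refine inK w hw _ (hO.ct (mul_mem (mul_mem ho hkO) (inv_mem ho))) ?_
        rw [← e, mul_smul, mul_smul, inv_smul_smul, fx y k (e2 hkK)]
    choose! f hf using key
    have := Fintype.ofFinite Ω
    have hcount := Finset.card_le_mul_card_image_of_maps_to (s := Finset.univ.erase x)
      (t := (A x : Set G).toFinite.toFinset) (f := f)
      (fun w hw => by simpa using (hf w (Finset.ne_of_mem_erase hw)).1) p (fun a _ => by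
        rcases Finset.eq_empty_or_nonempty
          (Finset.filter (fun w => f w = a) (Finset.univ.erase x)) with h0 | ⟨w, hw⟩
        · rw [h0]; simp
        rw [Finset.mem_filter] at hw
        have wx := Finset.ne_of_mem_erase hw.1
        have h1 : (Ln A x w \ {x}).ncard = p := by
          rw [Set.ncard_sdiff_singleton_of_mem (h.la x w wx.symm).mx, (h.ty.2 x w wx.symm).2]
          rfl
        rw [← h1, ← Set.ncard_coe_finset]
        apply Set.ncard_le_ncard _ (Set.toFinite _)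
        intro w' hw'
        rw [Finset.mem_coe, Finset.mem_filter] at hw'
        have wx' := Finset.ne_of_mem_erase hw'.1
        have h2 := hf w wx
        have h3 := hf w' wx'
        rw [hw.2] at h2
        rw [hw'.2] at h3
        have h4 := h.ti' x w x w' wx.symm wx'.symm _ h2.2.2 h2.2.1 h3.2.2
        exact ⟨show A w' ≤ Fl A x w from h4 ▸ le_sup_right, wx'⟩)
    rw [← Set.ncard_eq_toFinset_card, Finset.card_erase_of_mem (Finset.mem_univ x),
      Finset.card_univ, ← Nat.card_eq_fintype_card] at hcount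
    have h11 : (A x : Set G).ncard = p := st.card x
    rw [h11] at hcount
    have h5 := h.many.trans hcount
    have h6 := st.pp.pos
    nlinarith
  refine ⟨hK, fun o ho => fx x o (hO.ct ho), fun g hg q hq =>
    (mem_normalizer_iff.1 (hO.nm ((ep.nA x g).2 hg)) q).1 hq, ⟨2, eq_top_iff.2 fun a _ => ?_⟩,
    fun u v hu hv => ?_, fun u hu q hq e => ?_⟩
  · rw [Subgroup.mem_upperCentralSeries_succ_iff]
    intro b
    rw [Subgroup.upperCentralSeries_one, mem_center_iff]
    intro c
    exact Subtype.ext (hO.ct c.2 _ (hO.ab a.1 a.2 b.1 b.2)).symm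
  · obtain ⟨o, ho, rfl⟩ := trO u hu
    obtain ⟨o', ho', rfl⟩ := trO v hv
    exact ⟨o' * o⁻¹, mul_mem ho' (inv_mem ho), by rw [mul_smul, inv_smul_smul]⟩
  · obtain ⟨o, ho, rfl⟩ := trO u hu
    have h1 : o⁻¹ * q * o ∈ O := mul_mem (mul_mem (inv_mem ho) hq) ho
    have h2 := inK y h.xy.symm _ (hO.ct h1) (by rw [mul_smul, mul_smul, e, inv_smul_smul])
    rw [hK] at h2
    have h3 : orderOf (o⁻¹ * q * o) ∣ 2 := ht2 ▸ orderOf_dvd_of_mem_zpowers h2
    have h4 : orderOf (o⁻¹ * q * o) = 1 := Nat.eq_one_of_dvd_coprimes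
      (Nat.coprime_two_left.2 hO.odd) h3 (orderOf_dvd_natCard O h1)
    calc q = o * (o⁻¹ * q * o) * o⁻¹ := by group
      _ = 1 := by rw [orderOf_eq_one_iff.1 h4]; group

end Cfsg.Agent.H5.LpN45
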