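import Mathlib
import Cfsg.Agent.H71.P3Defs

/-! The nonsplit torus supported on a hyperbolic line. -/

set_option autoImplicit false

namespace Cfsg.Agent.H5.P3Tor

open Cfsg Module Cfsg.Agent.H27 Cfsg.Agent.H71.P3

section
variable {F V E : Type} [Field F] [AddCommGroup V] [Module F V] [Field E] [Algebra F E]
  (B : LinearMap.BilinForm F V) (b : Basis (Fin 2) F E) (u w : V)

/-- coordinates along the line -/
noncomputable def pr : V →ₗ[F] E := (B.flip w).smulRight (b 0) + (B u).smulRight (b 1)

/-- the embedding onto the line -/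
noncomputable def em : E →ₗ[F] V := (b.coord 0).smulRight u + (b.coord 1).smulRight w

theorem pr_apply (v : V) : pr B b u w v = B v w • b 0 + B u v • b 1 := by simp [pr]

theorem em_apply (x : E) : em b u w x = b.repr x 0 • u + b.repr x 1 • w := by simp [em]

theorem repr_pr0 (v : V) : b.repr (pr B b u w v) 0 = B v w := by simp [pr_apply]

theorem repr_pr1 (v : V) : b.repr (pr B b u w v) 1 = B u v := by simp [pr_apply]

/-- the determinant form -/
noncomputable def dd (x y : E) : F := b.repr x 0 * b.repr y 1 - b.repr x 1 * b.repr y 0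

theorem dd_eq (x y : E) : dd b x y = b.det ![x, y] := by
  rw [Basis.det_apply, Matrix.det_fin_two]
  simp [dd, Basis.toMatrix_apply]; ring

theorem dd_mul (a x y : E) : dd b (a * x) (a * y) = Algebra.norm F a * dd b x y := by
  rw [dd_eq, dd_eq, Algebra.norm_apply, ← Basis.det_comp]
  congr 1
  ext i; fin_cases i <;> simp

variable {B u w}

theorem pr_em (alt : B.IsAlt) (h : B u w = 1) (x : E) : pr B b u w (em b u w x) = x := by
  rw [pr_apply, em_apply]
  have e := b.sum_repr x
  rw [Fin.sum_univ_two] at e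
  simpa [alt.self_eq_zero, h] using e

theorem em_pr (alt : B.IsAlt) (h : B u w = 1) {v : V} (hv : v ∈ Submodule.span F {u, w}) :
    em b u w (pr B b u w v) = v := by
  obtain ⟨s, t, rfl⟩ := Submodule.mem_span_pair.1 hv
  rw [em_apply, repr_pr0, repr_pr1]
  simp [alt.self_eq_zero, h]

theorem B_em (alt : B.IsAlt) (v : V) (y : E) : B v (em b u w y) = dd b (pr B b u w v) y := by
  rw [dd, repr_pr0, repr_pr1, em_apply, ← alt.neg_eq v u]
  simp; ring

theorem B_em' (alt : B.IsAlt) (v : V) (y : E) : B (em b u w y) v = dd b y (pr B b u w v) := by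
  rw [← alt.neg_eq, B_em b alt, dd, dd]; ring

variable (B u w) in
/-- multiplication by `a` on the line, identity on the perpendicular space -/
noncomputable def mu (a : E) : V →ₗ[F] V :=
  LinearMap.id + em b u w ∘ₗ LinearMap.mulLeft F (a - 1) ∘ₗ pr B b u w

theorem mu_apply (a : E) (v : V) : mu B b u w a v = v + em b u w ((a - 1) * pr B b u w v) := by simp [mu]

theorem pr_mu (alt : B.IsAlt) (h : B u w = 1) (a : E) (v : V) :
    pr B b u w (mu B b u w a v) = a * pr B b u w v := by
  rw [mu_apply, map_add, pr_em b alt h]; ring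

theorem mu_mul (alt : B.IsAlt) (h : B u w = 1) (a c : E) (v : V) :
    mu B b u w (a * c) v = mu B b u w a (mu B b u w c v) := by
  rw [mu_apply b a, pr_mu b alt h, mu_apply, mu_apply, add_assoc, ← map_add]
  congr 2; ring

/-- the homomorphism from the units of `E` -/
noncomputable def hom (alt : B.IsAlt) (h : B u w = 1) : Eˣ →* (V ≃ₗ[F] V) :=
  (LinearMap.GeneralLinearGroup.generalLinearEquiv F V).toMonoidHom.comp (Units.map
    { toFun := mu B b u w
      map_one' := LinearMap.ext fun v => by simp [mu_apply]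
      map_mul' := fun a c => LinearMap.ext fun v => mu_mul b alt h a c v })

theorem hom_apply (alt : B.IsAlt) (h : B u w = 1) (a : Eˣ) (v : V) :
    hom b alt h a v = mu B b u w a v := rfl

theorem hom_inj (alt : B.IsAlt) (h : B u w = 1) : Function.Injective (hom b alt h) := by
  rw [injective_iff_map_eq_one]
  intro a ha
  have := pr_mu b alt h a (em b u w 1)
  rw [← hom_apply b alt h, ha, LinearEquiv.coe_one, id, pr_em b alt h, mul_one] at this
  exact Units.ext this.symm

theorem hom_mem (alt : B.IsAlt) (h : B u w = 1) {a : Eˣ} (ha : Algebra.norm F (a : E) = 1) :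
    hom b alt h a ∈ isomGroup B := fun v v' => by
  have e := dd_mul b a (pr B b u w v) (pr B b u w v')
  rw [hom_apply, hom_apply, mu_apply, mu_apply]
  simp only [map_add, LinearMap.add_apply]
  rw [B_em b alt v, B_em' b alt v', B_em b alt, pr_em b alt h]
  rw [ha] at e
  simp only [dd, sub_mul, one_mul, map_sub, Finsupp.sub_apply] at e ⊢
  linear_combination e

theorem hom_supp (alt : B.IsAlt) (h : B u w = 1) (a : Eˣ) (v : V)
    (hv : ∀ s ∈ Submodule.span F {u, w}, B v s = 0) : hom b alt h a v = v := by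
  have h1 := hv w (Submodule.subset_span (by simp))
  have h2 := hv u (Submodule.subset_span (by simp))
  rw [hom_apply, mu_apply, pr_apply, h1, ← alt.neg_eq, h2]
  simp

end

theorem tor : TorStmt := by
  rintro F V _ _ _ _ _ S l ⟨u, w, h, rfl⟩
  have := Fintype.ofFinite F
  obtain ⟨p, hp⟩ := CharP.exists F
  have : Fact p.Prime := ⟨CharP.char_is_prime F p⟩
  set E := FiniteField.Extension F p 2
  have cE : Nat.card E = Nat.card F ^ 2 := FiniteField.natCard_extension F p 2
  have q2 : 2 ≤ Nat.card F := Finite.one_lt_card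
  let b : Basis (Fin 2) F E := Module.finBasisOfFinrankEq F E (FiniteField.finrank_extension F p 2)
  have e1 : Nat.card F ^ 2 - 1 = (Nat.card F - 1) * (Nat.card F + 1) := by
    obtain ⟨m, hm⟩ : ∃ m, Nat.card F = m + 1 := ⟨Nat.card F - 1, by omega⟩
    rw [hm, Nat.add_sub_cancel, show (m + 1) ^ 2 = m * (m + 1 + 1) + 1 by ring, Nat.add_sub_cancel]
  obtain ⟨ζ, hζ⟩ := IsCyclic.exists_ofOrder_eq_natCard (α := Eˣ)
  rw [Nat.card_units, cE, e1] at hζ
  have ha : orderOf (ζ ^ (Nat.card F - 1)) = Nat.card F + 1 := by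
    rw [orderOf_pow' _ (by omega), hζ, Nat.gcd_mul_right_left, Nat.mul_div_cancel_left _ (by omega)]
  generalize ζ ^ (Nat.card F - 1) = a at ha
  have hp1 : ∀ d ∈ Subgroup.zpowers a, (d : E) ^ (Nat.card F + 1) = 1 := by
    rintro _ ⟨n, rfl⟩
    rw [← Units.val_pow_eq_pow_val, ← zpow_natCast, ← zpow_mul, mul_comm, zpow_mul, zpow_natCast, ← ha,
      pow_orderOf_eq_one, one_zpow, Units.val_one]
  have hn : Algebra.norm F (a : E) = 1 := (algebraMap F E).injective (by
    rw [FiniteField.algebraMap_norm_eq_pow, cE, e1, Nat.mul_div_cancel_left _ (by omega), map_one]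
    exact hp1 a (Subgroup.mem_zpowers a))
  refine ⟨hom b S.alt h a, hom_mem b S.alt h hn, hom_supp b S.alt h a,
    by rw [orderOf_injective _ (hom_inj b S.alt h), ha], ?_⟩
  intro d hd hd1
  rw [← MonoidHom.map_zpowers] at hd
  obtain ⟨d, hd, rfl⟩ := hd
  by_cases hm : (d : E) = -1
  · refine Or.inl ⟨hom_supp b S.alt h d, fun v hv => ?_⟩
    rw [hom_apply, mu_apply, hm, show ((-1 : E) - 1) * pr S.B b u w v = -(pr S.B b u w v + pr S.B b u w v) by ring,
      map_neg, map_add, em_pr b S.alt h hv]
    abel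
  refine Or.inr ⟨hom_supp b S.alt h d, fun v hv hv0 c e => ?_⟩
  have e2 := pr_mu b S.alt h d v
  rw [← hom_apply b S.alt h, e, map_smul, Algebra.smul_def] at e2
  have h0 : pr S.B b u w v ≠ 0 := fun e => hv0 (by rw [← em_pr b S.alt h hv, e, map_zero])
  have e3 : algebraMap F E c = d := mul_right_cancel₀ h0 e2
  have e4 := hp1 d hd
  rw [← e3, ← map_pow, pow_succ, Nat.card_eq_fintype_card, FiniteField.pow_card, map_mul, e3] at e4
  rcases mul_self_eq_one_iff.1 e4 with e5 | e5
  · exact hd1 (by rw [show d = 1 from Units.ext e5]; exact map_one _)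
  · exact hm e5

end Cfsg.Agent.H5.P3Tor
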