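import Cfsg.Agent.H58.SWDefs

/-! Project SW (S3694): dual subspaces and determinants of combinations of idempotents. -/

set_option autoImplicit false
open Matrix Cfsg Module

namespace Cfsg.Agent.H5.SwKd

open Cfsg.Agent.H58.SW

variable {F : Type} [Field F] {n : ℕ}

theorem dot_map (σ : F ≃+* F) (a b : Vc n F) :
    σ (a ⬝ᵥ b) = (fun i => σ (a i)) ⬝ᵥ fun i => σ (b i) := by
  simp [dotProduct, map_sum]

theorem exists_j (t : Tau F n) : ∃ j : Vc n F ≃+ Dual F (Vc n F),
    (∀ (a : F) v, j (a • v) = t.σ.symm a • j v) ∧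
    ∀ v w, t.σ (j v w) = (fun i => t.σ (w i)) ⬝ᵥ (((t.A⁻¹ : Gl n F) : Mt n F) *ᵥ v) := by
  let g : Vc n F ≃+ Vc n F :=
    { toFun := fun v i => t.σ.symm ((((t.A⁻¹ : Gl n F) : Mt n F) *ᵥ v) i)
      invFun := fun v => (t.A : Mt n F) *ᵥ fun i => t.σ (v i)
      left_inv := fun v => by
        simp only [RingEquiv.apply_symm_apply]
        change (t.A : Mt n F) *ᵥ (((t.A⁻¹ : Gl n F) : Mt n F) *ᵥ v) = v
        rw [mulVec_mulVec, Units.mul_inv, one_mulVec]
      right_inv := fun v => by
        funext i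
        simp only []
        rw [mulVec_mulVec, Units.inv_mul, one_mulVec, RingEquiv.symm_apply_apply]
      map_add' := fun v w => by
        funext i
        simp only [mulVec_add, Pi.add_apply, map_add] }
  have hg : ∀ v i, g v i = t.σ.symm ((((t.A⁻¹ : Gl n F) : Mt n F) *ᵥ v) i) := fun _ _ => rfl
  refine ⟨g.trans (dotProductEquiv F (Fin n)).toAddEquiv, fun a v => ?_, fun v w => ?_⟩
  · change dotProductEquiv F (Fin n) (g (a • v)) = _ • dotProductEquiv F (Fin n) (g v)
    rw [← map_smul]
    congr 1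
    funext i
    rw [hg, Pi.smul_apply, hg, mulVec_smul, Pi.smul_apply, smul_eq_mul, smul_eq_mul, map_mul]
  · change t.σ (g v ⬝ᵥ w) = _
    rw [dot_map, dotProduct_comm]
    simp only [hg, RingEquiv.apply_symm_apply]

theorem kd : KDStmt := by
  intro F _ n t hneg
  obtain ⟨j, hs, hj⟩ := exists_j t
  have mem : ∀ W v, v ∈ t.du W ↔ j v ∈ W.dualAnnihilator := fun W v => by
    rw [Submodule.mem_dualAnnihilator]
    change (∀ w ∈ W, _ = (0 : F)) ↔ _
    simp only [← hj, map_eq_zero_iff _ t.σ.injective]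
  have hap : ∀ (x : Mt n F) v w, j (t.ap x *ᵥ v) w = j v (x *ᵥ w) := fun x v w => by
    apply t.σ.injective
    rw [hj, hj, Tau.ap, if_pos hneg, mulVec_mulVec, ← Matrix.mul_assoc, ← Matrix.mul_assoc,
      Units.inv_mul, Matrix.one_mul, ← mulVec_mulVec, dotProduct_mulVec, vecMul_transpose]
    congr 1
    funext i
    simp [mulVec, dotProduct, map_sum]
  refine ⟨fun x W W' => ⟨fun h v hv => ?_, fun h w hw => ?_⟩, fun W => ?_, fun W W' => ?_,
    fun W W' => ?_, fun W W' => ?_, ?_, ?_⟩
  · rw [mem, Submodule.mem_dualAnnihilator] at hv ⊢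
    intro w hw
    rw [hap, hv _ (h w hw)]
  · rw [← Subspace.forall_mem_dualAnnihilator_apply_eq_zero_iff]
    intro φ hφ
    obtain ⟨v, rfl⟩ := j.surjective φ
    rw [← hap]
    exact (Submodule.mem_dualAnnihilator _).1 ((mem _ _).1 (h v ((mem _ _).2 hφ))) w hw
  · let k : t.du W ≃+ W.dualAnnihilator :=
      { j.toEquiv.subtypeEquiv (mem W) with
        map_add' := fun a b => Subtype.ext (j.map_add a.1 b.1) }
    have h1 : Module.rank F (t.du W) = Module.rank F W.dualAnnihilator :=
      rank_eq_of_equiv_equiv t.σ.symm k t.σ.symm.bijective fun a v => Subtype.ext (hs a v.1)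
    have h2 := Subspace.finrank_add_finrank_dualAnnihilator_eq W
    rw [finrank_fin_fun] at h2
    rw [finrank, h1, add_comm]
    exact h2
  · ext v
    rw [mem, Subspace.dualAnnihilator_inf_eq, Submodule.mem_sup, Submodule.mem_sup]
    constructor
    · rintro ⟨a, ha, b, hb, h⟩
      obtain ⟨a, rfl⟩ := j.surjective a
      obtain ⟨b, rfl⟩ := j.surjective b
      exact ⟨a, (mem _ _).2 ha, b, (mem _ _).2 hb, j.injective (by rw [map_add, h])⟩
    · rintro ⟨a, ha, b, hb, rfl⟩
      exact ⟨_, (mem _ _).1 ha, _, (mem _ _).1 hb, (map_add j a b).symm⟩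
  · ext v
    rw [mem, Submodule.dualAnnihilator_sup_eq, Submodule.mem_inf, Submodule.mem_inf, mem, mem]
  · rw [← Subspace.dualAnnihilator_le_dualAnnihilator_iff (W := W) (W' := W')]
    refine ⟨fun h φ hφ => ?_, fun h v hv => (mem _ _).2 (h ((mem _ _).1 hv))⟩
    obtain ⟨v, rfl⟩ := j.surjective φ
    exact (mem _ _).1 (h ((mem _ _).2 hφ))
  · ext v
    rw [mem]
    simp
  · ext v
    rw [mem]
    simp

theorem det_idem (e : Mt n F) (he : e * e = e) (a : F) : (a • e + (1 - e)).det = a ^ e.rank := by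
  have hi : IsIdempotentElem (toLin' e) := by
    rw [IsIdempotentElem, Module.End.mul_eq_comp, ← toLin'_mul, he]
  have hp := LinearMap.IsIdempotentElem.isProj_range _ hi
  have h1 := hp.eq_conj_prodMap
  set c := (LinearMap.range (toLin' e)).prodEquivOfIsCompl (LinearMap.ker (toLin' e)) hp.isCompl
  have h2 : toLin' (a • e + (1 - e)) = c.conj (LinearMap.prodMap (a • LinearMap.id) LinearMap.id) := by
    have h3 : (LinearMap.prodMap (a • LinearMap.id) LinearMap.id :
        Module.End F (LinearMap.range (toLin' e) × LinearMap.ker (toLin' e))) =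
        LinearMap.id + (a - 1) • LinearMap.prodMap LinearMap.id 0 := by
      refine LinearMap.ext fun x => Prod.ext ?_ ?_ <;> simp [sub_smul]
    have h4 : a • e + (1 - e) = 1 + (a - 1) • e := by rw [sub_smul, one_smul]; abel
    rw [h3, h4, map_add, map_add, map_smul, map_smul, ← h1, toLin'_one, LinearEquiv.conj_id]
  rw [← LinearMap.det_toLin', h2, LinearEquiv.conj_apply, LinearMap.comp_assoc, LinearMap.det_conj,
    LinearMap.det_prodMap, LinearMap.det_smul, LinearMap.det_id, LinearMap.det_id, mul_one, mul_one]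
  rfl

theorem idet : IdetStmt := by
  intro K _ _ n E lam hE
  have key : ∀ S : Finset (Mt n K), S ⊆ E →
      (∑ e ∈ S, lam e • e + (1 - ∑ e ∈ S, e)).det = ∏ e ∈ S, lam e ^ e.rank := by
    intro S
    induction S using Finset.induction_on with
    | empty => simp
    | insert f S hf ih =>
      intro hS
      have hfE := hS (Finset.mem_insert_self _ _)
      have hSE : S ⊆ E := (Finset.subset_insert _ _).trans hS
      have h0 : ∀ e ∈ S, f * e = 0 := fun e he =>
        hE.orth f hfE e (hSE he) fun h => hf (h ▸ he)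
      have h1 : f * ∑ e ∈ S, lam e • e = 0 := by
        rw [Finset.mul_sum]
        exact Finset.sum_eq_zero fun e he => by rw [mul_smul_comm, h0 e he, smul_zero]
      have h2 : f * ∑ e ∈ S, e = 0 := by
        rw [Finset.mul_sum]
        exact Finset.sum_eq_zero h0
      have h3 : f * (∑ e ∈ S, lam e • e + (1 - ∑ e ∈ S, e)) = f := by
        rw [mul_add, mul_sub, h1, h2, mul_one, zero_add, sub_zero]
      rw [Finset.prod_insert hf, ← ih hSE, ← det_idem f (hE.idem f hfE), ← det_mul,
        Finset.sum_insert hf, Finset.sum_insert hf, add_mul, sub_mul, smul_mul_assoc, h3, one_mul]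
      congr 1
      abel
  have := key E subset_rfl
  rwa [hE.sum, sub_self, add_zero] at this

end Cfsg.Agent.H5.SwKd
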