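import Cfsg.Agent.H53.TCDefs

/-! A linear element centralizing `T` and preserving the `T`-orbits is a scalar. -/

set_option autoImplicit false

namespace Cfsg.Agent.H5.TC

open MulAction Polynomial Cfsg.Agent.H12.RO Cfsg.Agent.H53.MW Cfsg.Agent.H53.TC

universe u

theorem exists_eig {V K ι : Type*} [AddCommGroup V] [Field K] [Module K V] (f : Module.End K V)
    (γ : ι → K) (s : Finset ι) : ∀ v : V, v ≠ 0 → aeval f (∏ i ∈ s, (X - C (γ i))) v = 0 →
      ∃ i ∈ s, ∃ x : V, x ≠ 0 ∧ f x = γ i • x := by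
  classical
  induction s using Finset.induction_on with
  | empty => intro v hv e; exact absurd (by simpa using e) hv
  | insert i s hi ih =>
    intro v hv e
    by_cases c : aeval f (∏ i ∈ s, (X - C (γ i))) v = 0
    · obtain ⟨j, hj, k⟩ := ih v hv c
      exact ⟨j, Finset.mem_insert_of_mem hj, k⟩
    · refine ⟨i, Finset.mem_insert_self _ _, _, c, ?_⟩
      rw [Finset.prod_insert hi, map_mul, Module.End.mul_apply] at e
      simpa [sub_eq_zero] using e

theorem two_eig {V K : Type*} [AddCommGroup V] [Nontrivial V] [Field K] [Module K V]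
    (f : Module.End K V) {r : ℕ} (hr : 0 < r) {ζ α : K} (hζ : IsPrimitiveRoot ζ r) (hα : α ≠ 0)
    (hf : ∀ v, (f ^ r) v = α ^ r • v) : (∃ γ : K, ∀ v, f v = γ • v) ∨ ∃ γ γ' : K, γ ≠ γ' ∧ γ' ≠ 0 ∧
      γ ^ r = γ' ^ r ∧ ∃ x y : V, x ≠ 0 ∧ y ≠ 0 ∧ f x = γ • x ∧ f y = γ' • y := by
  have h0 : ∀ v, aeval f (∏ i ∈ Finset.range r, (X - C (ζ ^ i * α))) v = 0 := fun v => by
    rw [← X_pow_sub_C_eq_prod hζ hr rfl, map_sub, aeval_C, map_pow, aeval_X, LinearMap.sub_apply, hf,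
      Module.algebraMap_end_apply, sub_self]
  obtain ⟨v, hv⟩ := exists_ne (0 : V)
  obtain ⟨i, hi, x, hx, e⟩ := exists_eig f _ _ v hv (h0 v)
  refine or_iff_not_imp_left.2 fun c => ?_
  push Not at c
  obtain ⟨w, hw⟩ := c (ζ ^ i * α)
  obtain ⟨j, hj, y, hy, e'⟩ := exists_eig f (fun i => ζ ^ i * α) ((Finset.range r).erase i) _
    (sub_ne_zero.2 hw) (by
      have := h0 w
      rwa [← Finset.prod_erase_mul _ _ hi, map_mul, Module.End.mul_apply, map_sub, aeval_C, aeval_X,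
        LinearMap.sub_apply, Module.algebraMap_end_apply] at this)
  obtain ⟨hji, hj⟩ := Finset.mem_erase.1 hj
  refine ⟨_, _, fun k => hji ?_, mul_ne_zero (pow_ne_zero _ (hζ.ne_zero hr.ne')) hα, ?_, x, y, hx, hy,
    e, e'⟩
  · exact (hζ.pow_inj (Finset.mem_range.1 hi) (Finset.mem_range.1 hj) (mul_right_cancel₀ hα k)).symm
  · rw [mul_pow, mul_pow, ← pow_mul, ← pow_mul, mul_comm i, mul_comm j, pow_mul, pow_mul,
      hζ.pow_eq_one, one_pow, one_pow]

theorem perp_perp {W K : Type*} [AddCommGroup W] [Finite W] [Field K] {b : W → W → Kˣ} (h : Alt b)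
    (D : AddSubgroup W) : h.perp (h.perp D) = D :=
  (AddSubgroup.eq_of_le_of_card_ge (fun x hx y hy => by rw [h.swap, hy x hx, inv_one]) (le_of_eq
    (Nat.eq_of_mul_eq_mul_left Nat.card_pos ((h.card_mul (h.perp D)).trans
      ((h.card_mul D).symm.trans (mul_comm _ _)))))).symm

theorem nsmul_right {W K : Type*} [AddCommGroup W] [Field K] {b : W → W → Kˣ} (h : Alt b) (n : ℕ)
    (x y : W) : b x (n • y) = b x y ^ n := by
  rw [h.swap, h.nsmul_left, h.swap x y, inv_pow, inv_inv]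

variable {L V K W : Type*} [Group L] [AddCommGroup V] [DistribMulAction L V] [Field K]
  [Module K V] [AddCommGroup W] {σ : L →* RingAut K} {G T : Subgroup L} {π : L → W}
  {b : W → W → Kˣ} {r : ℕ} (h : Amb L V K W σ G T π b r)

include h

theorem lin {f : L} (hf : σ f = 1) (c : K) (v : V) : f • c • v = c • f • v := by
  rw [h.semi, hf]; rfl

theorem pi_one : π 1 = 0 := by simpa using h.mul 1 (one_mem _) 1 (one_mem _)

theorem pi_inv {t : L} (ht : t ∈ T) : π t⁻¹ = -π t :=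
  eq_neg_of_add_eq_zero_left (by rw [← h.mul _ (inv_mem ht) _ ht, inv_mul_cancel, pi_one h])

theorem b_pow (x y : W) : (b x y : K) ^ r = 1 := by
  rw [← Units.val_pow_eq_pow_val, ← h.alt.nsmul_left, h.rW, h.alt.zero_left, Units.val_one]

theorem prim {x y : W} (hb : b x y ≠ 1) : IsPrimitiveRoot (b x y : K) r := by
  have := Fact.mk h.prime
  exact orderOf_eq_prime (b_pow h x y) (fun e => hb (Units.ext e)) ▸ IsPrimitiveRoot.orderOf _

theorem exists_prim : ∃ ζ : K, IsPrimitiveRoot ζ r := by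
  obtain ⟨x, hx⟩ := h.nt
  obtain ⟨y, hy⟩ := not_forall.1 (mt (h.alt.nd x) hx)
  exact ⟨_, prim h hy⟩

theorem exists_sep [Finite W] {S : Subgroup L} (hS : S ≤ T) {τ : L} (hτ : ∀ s ∈ S, π s ≠ π τ) :
    ∃ y, (∀ s ∈ S, b (π s) y = 1) ∧ b (π τ) y ≠ 1 := by
  let D : AddSubgroup W :=
    { carrier := {w | ∃ s ∈ S, π s = w}
      zero_mem' := ⟨1, one_mem _, pi_one h⟩
      add_mem' := by
        rintro _ _ ⟨s, hs, rfl⟩ ⟨t, ht, rfl⟩
        exact ⟨_, mul_mem hs ht, h.mul _ (hS hs) _ (hS ht)⟩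
      neg_mem' := by
        rintro _ ⟨s, hs, rfl⟩
        exact ⟨_, inv_mem hs, pi_inv h (hS hs)⟩ }
  by_contra c
  push Not at c
  obtain ⟨s, hs, e⟩ : π τ ∈ D := perp_perp h.alt D ▸ fun y hy => by
    rw [h.alt.swap, c y fun s hs => hy _ ⟨s, hs, rfl⟩, inv_one]
  exact hτ s hs e

theorem scal_of_eq {s t : L} (hs : s ∈ T) (ht : t ∈ T) (e : π s = π t) :
    ∃ μ : K, ∀ v : V, t • v = μ • s • v := by
  obtain ⟨μ, k⟩ := (h.ker _ (mul_mem ht (inv_mem hs))).1 (by
    rw [h.mul _ ht _ (inv_mem hs), pi_inv h hs, e, add_neg_cancel])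
  exact ⟨μ, fun v => by rw [← k, ← mul_smul, inv_mul_cancel_right]⟩

/-- the elements with the same eigenvalue on two vectors -/
def sameEig (x y : V) : Subgroup L where
  carrier := {t | t ∈ T ∧ ∃ l : K, t • x = l • x ∧ t • y = l • y}
  one_mem' := ⟨one_mem _, 1, by simp, by simp⟩
  mul_mem' := fun {s t} ⟨hs, l, s1, s2⟩ ⟨ht, m, t1, t2⟩ => ⟨mul_mem hs ht, m * l,
    by rw [mul_smul, t1, lin h (h.σT s hs), s1, mul_smul],
    by rw [mul_smul, t2, lin h (h.σT s hs), s2, mul_smul]⟩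
  inv_mem' := fun {s} ⟨hs, l, s1, s2⟩ => by
    have k : ∀ x : V, s • x = l • x → s⁻¹ • x = l⁻¹ • x := fun x e => by
      by_cases hl : l = 0
      · rw [hl, zero_smul, smul_eq_zero_iff_eq] at e
        rw [e, smul_zero, smul_zero]
      · rw [inv_smul_eq_iff, lin h (h.σT s hs), e, inv_smul_smul₀ hl]
    exact ⟨inv_mem hs, l⁻¹, k x s1, k y s2⟩

theorem split_case [Finite L] [Finite V] [Finite W] {c : L} (hc : σ c = 1)
    (hT : ∀ t ∈ T, Commute c t) (ho : ∀ v : V, ∃ t ∈ T, c • v = t • v) {γ γ' : K} (h0 : γ' ≠ 0)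
    (hr : γ ^ r = γ' ^ r) {x y0 : V} (hx : x ≠ 0) (hy0 : y0 ≠ 0) (ex : c • x = γ • x)
    (ey0 : c • y0 = γ' • y0) : γ = γ' := by
  by_contra hne
  have cm : ∀ t ∈ T, ∀ v : V, c • t • v = t • c • v := fun t ht v => by
    rw [← mul_smul, (hT t ht).eq, mul_smul]
  obtain ⟨y, ⟨hy, ey⟩, hmax⟩ := Set.exists_max_image {y : V | y ≠ 0 ∧ c • y = γ' • y}
    (fun y => Nat.card (sameEig h x y)) (Set.toFinite _) ⟨y0, hy0, ey0⟩
  obtain ⟨τ, hτ, e⟩ := ho (x + y)
  rw [smul_add, smul_add, ex, ey] at e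
  have e1 : τ • x - γ • x = γ' • y - τ • y := by rw [sub_eq_sub_iff_add_eq_add, ← e, add_comm]
  have e2 : τ • x - γ • x = 0 := by
    have k1 : c • (τ • x - γ • x) = γ • (τ • x - γ • x) := by
      rw [smul_sub, cm τ hτ, lin h hc, ex, lin h (h.σT τ hτ), smul_sub]
    have k2 : c • (γ' • y - τ • y) = γ' • (γ' • y - τ • y) := by
      rw [smul_sub, cm τ hτ, lin h hc, ey, lin h (h.σT τ hτ), smul_sub]
    rw [← e1, k1, ← sub_eq_zero, ← sub_smul] at k2
    exact (smul_eq_zero.1 k2).resolve_left (sub_ne_zero.2 hne)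
  rw [e2, eq_comm, sub_eq_zero, eq_comm] at e1
  rw [sub_eq_zero] at e2
  have hn : ∀ s ∈ sameEig h x y, π s ≠ π τ := fun s ⟨hs, l, s1, s2⟩ k => by
    obtain ⟨μ, m⟩ := scal_of_eq h hs hτ k
    have a1 := m x
    have a2 := m y
    rw [e2, s1, smul_smul] at a1
    rw [e1, s2, smul_smul] at a2
    exact hne ((smul_left_injective K hx a1).trans (smul_left_injective K hy a2).symm)
  obtain ⟨w, w1, w2⟩ := exists_sep h (S := sameEig h x y) (fun s hs => hs.1) hn
  have := NeZero.mk h.prime.ne_zero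
  obtain ⟨k, -, hk⟩ := (prim h w2).eq_pow_of_pow_eq_one (ξ := γ / γ') (by
    rw [div_pow, hr, div_self (pow_ne_zero _ h0)])
  obtain ⟨j, hj, ej⟩ := h.surj (k • w)
  have hle : sameEig h x y ≤ sameEig h x (j • y) := fun s hs => by
    obtain ⟨hs', l, s1, s2⟩ := id hs
    refine ⟨hs', l, s1, ?_⟩
    rw [h.hb s hs' j hj, ej, nsmul_right h.alt, w1 s hs, one_pow, Units.val_one, one_smul, s2,
      lin h (h.σT j hj)]
  have hm : τ ∈ sameEig h x (j • y) := ⟨hτ, γ, e2, by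
    rw [h.hb τ hτ j hj, ej, nsmul_right h.alt, Units.val_pow_eq_pow_val, hk, e1, lin h (h.σT j hj),
      smul_smul, div_mul_cancel₀ _ h0]⟩
  refine hn τ ((Subgroup.eq_of_le_of_card_ge hle (hmax _ ⟨(smul_ne_zero_iff_ne j).2 hy, ?_⟩)).ge hm) rfl
  rw [cm j hj, ey, lin h (h.σT j hj)]

theorem two_ne (h2 : r = 2) : (2 : K) ≠ 0 := fun e => by
  obtain ⟨ζ, hζ⟩ := exists_prim h
  subst h2
  refine hζ.ne_one one_lt_two (hζ.eq_neg_one_of_two_right.trans ?_)
  rw [neg_eq_iff_add_eq_zero, one_add_one_eq_two, e]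

theorem b_neg (h2 : r = 2) {x y : W} (hb : b x y ≠ 1) : (b x y : K) = -1 :=
  (h2 ▸ prim h hb).eq_neg_one_of_two_right

theorem sq_scal (h2 : r = 2) {t : L} (ht : t ∈ T) : ∃ ε : K, ∀ v : V, t • t • v = ε • v := by
  obtain ⟨ε, k⟩ := (h.ker _ (mul_mem ht ht)).1 (by rw [h.mul _ ht _ ht, ← two_nsmul, ← h2, h.rW])
  exact ⟨ε, fun v => by rw [← k, mul_smul]⟩

theorem nonsplit_case [Finite L] [Finite V] [Nontrivial V] [Finite W] (h2 : r = 2) {c : L}
    (hc : σ c = 1) (hT : ∀ t ∈ T, Commute c t) (ho : ∀ v : V, ∃ t ∈ T, c • v = t • v)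
    (cc : ∀ v : V, c • c • v = -v) : ∃ γ : K, γ ^ 2 = -1 := by
  by_contra hsq
  have n2 := two_ne h h2
  have dbl : ∀ x : V, x + x = 0 → x = 0 := fun x e =>
    (smul_eq_zero.1 ((two_smul K x).trans e)).resolve_left n2
  have ns : ∀ (γ : K) (x : V), x ≠ 0 → c • x ≠ γ • x := fun γ x hx e => hsq ⟨γ, by
    have := cc x
    rw [e, lin h hc, e, smul_smul, ← neg_one_smul K x] at this
    rw [sq]; exact smul_left_injective K hx this⟩
  have cm : ∀ t ∈ T, ∀ v : V, t • c • v = c • t • v := fun t ht v => by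
    rw [← mul_smul, ← (hT t ht).eq, mul_smul]
  obtain ⟨v, hv, hmax⟩ := Set.exists_max_image {v : V | v ≠ 0}
    (fun v => Nat.card ↥(T ⊓ stabilizer L v)) (Set.toFinite _) (exists_ne 0)
  have key : ∀ x : V, x ≠ 0 → ∀ τ ∈ T, c • x = τ • x → ∀ y : V, τ • τ • y = -y :=
    fun x hx τ hτ e y => by
      obtain ⟨ε, k⟩ := sq_scal h h2 hτ
      have := k x
      rw [← e, cm τ hτ, ← e, cc, ← neg_one_smul K x] at this
      rw [k, ← smul_left_injective K hx this, neg_one_smul]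
  obtain ⟨τ, hτ, e⟩ := ho v
  obtain ⟨w0, w1, w2⟩ := exists_sep h (S := T ⊓ stabilizer L v) (τ := τ) inf_le_left fun s hs k => by
    obtain ⟨μ, m⟩ := scal_of_eq h hs.1 hτ k
    exact ns μ v hv (by rw [e, m, show s • v = v from hs.2])
  obtain ⟨j, hj, rfl⟩ := h.surj w0
  have tj : ∀ y : V, τ • j • y = -(j • τ • y) := fun y => by
    rw [h.hb τ hτ j hj, b_neg h h2 w2, neg_one_smul]
  have hv' : v + c • v ≠ 0 := fun k =>
    ns (-1) v hv (by rw [neg_one_smul]; exact eq_neg_of_add_eq_zero_right k)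
  have ev' : τ • (v + c • v) = c • (v + c • v) := by rw [smul_add, cm τ hτ, ← e, smul_add]
  have ep : τ • j • (v + c • v) = -(c • j • (v + c • v)) := by rw [tj, ev', cm j hj]
  have fp : ∀ s ∈ T ⊓ stabilizer L v, s • j • (v + c • v) = j • (v + c • v) := fun s hs => by
    rw [h.hb s hs.1 j hj, w1 s hs, Units.val_one, one_smul, smul_add s, cm s hs.1,
      show s • v = v from hs.2]
  have hp : j • (v + c • v) ≠ 0 := (smul_ne_zero_iff_ne j).2 hv'
  generalize hq : j • (v + c • v) = p at ep fp hp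
  have hw : v + p ≠ 0 := fun k => by
    have k1 := congrArg (τ • ·) k
    have k2 := congrArg (c • ·) k
    simp only [smul_add, smul_zero, ep, ← e] at k1 k2
    refine hv ((smul_eq_zero_iff_eq c).1 (dbl _ ?_))
    rw [← add_zero (c • v + c • v), ← neg_add_cancel (c • p), add_add_add_comm, k1, k2, neg_add_cancel, add_zero]
  have fw : ∀ s ∈ T ⊓ stabilizer L v, s • (v + p) = v + p := fun s hs => by
    rw [smul_add, fp s hs, show s • v = v from hs.2]
  obtain ⟨τ', hτ', e'⟩ := ho (v + p)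
  by_cases hb : b (π τ') (π τ) = 1
  · have u1 : (τ * τ') • (v + p) = -v + p := by
      rw [mul_smul, ← e', cm τ hτ, smul_add τ, ep, ← e, smul_add, smul_neg, cc, cc, neg_neg]
    have u2 : ∀ y : V, (τ * τ') • (τ * τ') • y = y := fun y => by
      rw [mul_smul, mul_smul, h.hb τ' hτ' τ hτ, hb, Units.val_one, one_smul, key v hv τ hτ e,
        key _ hw τ' hτ' e', neg_neg]
    have u3 : (τ * τ') • (p + p) = p + p := by
      have := u2 (v + p)
      rw [show p + p = v + p + (-v + p) by abel, smul_add, ← u1, this, add_comm]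
    have hle : T ⊓ stabilizer L v ≤ T ⊓ stabilizer L (p + p) := fun s hs =>
      ⟨hs.1, show s • _ = _ by rw [smul_add, fp s hs]⟩
    have u4 := fw _ ((Subgroup.eq_of_le_of_card_ge hle (hmax _ fun k => hp (dbl p k))).ge
      ⟨mul_mem hτ hτ', u3⟩)
    rw [u1, add_left_inj, neg_eq_iff_add_eq_zero] at u4
    exact hv (dbl v u4)
  · have tt : ∀ y : V, τ • τ' • y = -(τ' • τ • y) := fun y => by
      rw [h.hb τ' hτ' τ hτ, b_neg h h2 hb, neg_one_smul, neg_neg]
    rw [smul_add, smul_add] at e'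
    have e1 : τ' • v - c • p = c • v - τ' • p := by rw [sub_eq_sub_iff_add_eq_add, ← e']
    have k1 : τ • (τ' • v - c • p) = -(c • (τ' • v - c • p)) := by
      rw [smul_sub, tt, ← e, cm τ' hτ', cm τ hτ, ep, smul_neg, smul_sub, neg_sub, neg_sub_neg]
    have k2 : τ • (c • v - τ' • p) = c • (c • v - τ' • p) := by
      rw [smul_sub, tt, ep, smul_neg, neg_neg, cm τ' hτ', cm τ hτ, ← e, smul_sub]
    rw [← e1, k1, neg_eq_iff_add_eq_zero] at k2
    have e2 := sub_eq_zero.1 ((smul_eq_zero_iff_eq c).1 (dbl _ k2))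
    have e3 : (j⁻¹ * τ') • v = c • v - v := by
      rw [mul_smul, e2, ← hq, ← cm j hj, inv_smul_smul, smul_add, cc, sub_eq_add_neg]
    obtain ⟨ε, k⟩ := sq_scal h h2 (mul_mem (inv_mem hj) hτ')
    have e4 := k v
    rw [e3, smul_sub, cm _ (mul_mem (inv_mem hj) hτ'), e3, smul_sub, cc] at e4
    refine ns (-ε / 2) v hv ?_
    rw [div_eq_inv_mul, mul_smul, eq_inv_smul_iff₀ n2, neg_smul, ← e4, two_smul]
    abel

omit h

theorem csc : CscStmt.{u} := fun L V K W _ _ _ _ _ _ _ _ _ _ _ σ G T π b r h c hc hT ho hr => by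
  obtain ⟨ζ, hζ⟩ := exists_prim h
  let f : Module.End K V :=
    { toFun := fun v => c • v
      map_add' := smul_add c
      map_smul' := lin h hc }
  have fp : ∀ (n : ℕ) v, (f ^ n) v = c ^ n • v := fun n => by
    induction n with
    | zero => simp
    | succ n ih => intro v; rw [pow_succ, pow_succ, Module.End.mul_apply, ih, mul_smul]; rfl
  obtain ⟨α, hα, e⟩ : ∃ α : K, α ≠ 0 ∧ ∀ v, (f ^ r) v = α ^ r • v := by
    rcases hr with e | ⟨h2, e⟩
    · exact ⟨1, one_ne_zero, fun v => by rw [fp, e, one_pow, one_smul, one_smul]⟩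
    · obtain ⟨α, k⟩ := nonsplit_case h h2 hc hT ho e
      refine ⟨α, fun k' => by simp [k'] at k, fun v => ?_⟩
      rw [fp, h2, k, sq, mul_smul, e, neg_one_smul]
  rcases two_eig f h.prime.pos hζ hα e with k | ⟨γ, γ', hne, h0, k, x, y, hx, hy, ex, ey⟩
  · exact k
  · exact absurd (split_case h hc hT ho h0 k hx hy ex ey) hne

end Cfsg.Agent.H5.TC
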