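import Cfsg.Agent.H53.UwDefs

/-!
Project UW, piece GENQ: the unipotent radicals generate all transvections.
-/

set_option autoImplicit false

namespace Cfsg.Agent.H5.UwG

open Module Cfsg.Agent.H31 Cfsg.Agent.H53.Uw

universe u

variable {E V : Type u} [Field E] [AddCommGroup V] [Module E V] {σ : E →+* E}
  {B : V →ₛₗ[σ] V →ₗ[E] E}

theorem exists_fl [Finite E] [Finite V] (h : IsHerm B) (ho : Odd (finrank E V)) {u x : V}
    (hu : B u u ≠ 0) (hx : B x x = 0) (hux : B u x = 0) : ∃ X, Fl B u X ∧ x ∈ X := by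
  have hs := h.toIsHermSymm
  have : Finite (Submodule E V) := Finite.of_injective _ SetLike.coe_injective
  obtain ⟨X, ⟨h1, h2, h3⟩, hm⟩ := Set.Finite.exists_maximal (Set.toFinite
    {X : Submodule E V | TotIso B X ∧ (∀ y ∈ X, B u y = 0) ∧ x ∈ X}) ⟨E ∙ x, fun a ha b hb => by
      obtain ⟨a, rfl⟩ := Submodule.mem_span_singleton.1 ha
      obtain ⟨b, rfl⟩ := Submodule.mem_span_singleton.1 hb
      rw [smul_left, smul_right, hx, mul_zero, mul_zero], fun a ha => by
      obtain ⟨a, rfl⟩ := Submodule.mem_span_singleton.1 ha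
      rw [smul_right, hux, mul_zero], Submodule.mem_span_singleton_self x⟩
  refine ⟨X, ⟨hu, h1, h2, ?_⟩, h3⟩
  have mW : ∀ y, y ∈ perp B (X ⊔ E ∙ u) ↔ (∀ a ∈ X, B a y = 0) ∧ B u y = 0 := fun y => by
    rw [perp_sup, Submodule.mem_inf, mem_perp, mem_perp_span_singleton]
  have iso : ∀ y ∈ perp B (X ⊔ E ∙ u), B y y = 0 → y ∈ X := fun y hy hyy => by
    obtain ⟨k1, k2⟩ := (mW y).1 hy
    refine hm (y := X ⊔ E ∙ y) ⟨fun a ha b hb => ?_, fun a ha => ?_, Submodule.mem_sup_left h3⟩
      le_sup_left (Submodule.mem_sup_right (Submodule.mem_span_singleton_self y))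
    · obtain ⟨a, ha1, _, ha', rfl⟩ := Submodule.mem_sup.1 ha
      obtain ⟨b, hb1, _, hb', rfl⟩ := Submodule.mem_sup.1 hb
      obtain ⟨s, rfl⟩ := Submodule.mem_span_singleton.1 ha'
      obtain ⟨t, rfl⟩ := Submodule.mem_span_singleton.1 hb'
      rw [add_left, smul_left, map_add, map_add, smul_right, smul_right, h1 a ha1 b hb1, k1 a ha1, hyy,
        hs.flip_zero (k1 b hb1)]
      simp
    · obtain ⟨a, ha1, _, ha', rfl⟩ := Submodule.mem_sup.1 ha
      obtain ⟨s, rfl⟩ := Submodule.mem_span_singleton.1 ha'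
      rw [map_add, smul_right, h2 a ha1, k2, mul_zero, add_zero]
  have le : X ≤ perp B (X ⊔ E ∙ u) := fun y hy => (mW y).2 ⟨fun a ha => h1 a ha y hy, h2 y hy⟩
  obtain ⟨C, hd, hC⟩ := IsModularLattice.exists_disjoint_and_sup_eq le
  have an : ∀ c ∈ C, B c c = 0 → c = 0 := fun c hc hcc =>
    (Submodule.disjoint_def.1 hd) c (iso c (hC ▸ Submodule.mem_sup_right hc) hcc) hc
  have c1 : finrank E C < 2 := by
    by_contra! h2
    obtain ⟨c, hc, c0, hcc⟩ := h.exists_isotropic (W := C) (fun c hc hy => an c hc (hy c hc)) h2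
    exact c0 (an c hc hcc)
  have d1 := Submodule.finrank_sup_add_finrank_inf_eq X C
  rw [hd.eq_bot, finrank_bot, hC] at d1
  have d2 := h.finrank_add_finrank_perp (X ⊔ E ∙ u)
  have d3 := Submodule.finrank_sup_add_finrank_inf_eq X (E ∙ u)
  have u0 : u ≠ 0 := fun e => hu (by rw [e, map_zero])
  rw [(Submodule.disjoint_span_singleton' u0).2 (fun e => hu (h2 u e)) |>.eq_bot, finrank_bot,
    finrank_span_singleton u0] at d3
  obtain ⟨k, hk⟩ := ho
  omega

theorem genq : GenqStmt.{u} := by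
  intro E V _ _ _ _ _ σ B q hS ho h3 u K hu hK z hz
  have h := hS.herm
  have hs := h.toIsHermSymm
  have base : ∀ x, B x x = 0 → B u x = 0 → CX B (E ∙ x) ≤ K := fun x hx hux => by
    obtain ⟨X, hX, hxX⟩ := exists_fl h ho hu hx hux
    exact ((CX_mono ((Submodule.span_singleton_le_iff_mem _ _).2 hxX)).trans
      (CX_le_QX hX.ti)).trans (hK X hX)
  by_cases huz : B u z = 0
  · exact base z hz huz
  have u0 : u ≠ 0 := fun e => hu (by rw [e, map_zero])
  obtain ⟨x, hux, hx, hxz⟩ : ∃ x, B u x = 0 ∧ B x x = 0 ∧ B x z ≠ 0 := by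
    by_contra! H
    have d := h.finrank_add_finrank_perp (E ∙ u)
    rw [finrank_span_singleton u0] at d
    have := h.le_of_isotropic_mem (S := perp B (E ∙ z))
      (h.nondegOn_perp (nondegOn_span_singleton hu)) (by omega) fun y hy hyy =>
        mem_perp_span_singleton.2 (hs.flip_zero (H y (mem_perp_span_singleton.1 hy) hyy))
    obtain ⟨a, rfl⟩ := Submodule.mem_span_singleton.1
      (h.perp_le_perp_iff.1 this (Submodule.mem_span_singleton_self z))
    rw [smul_left] at hz
    rcases mul_eq_zero.1 hz with e | e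
    · rw [map_eq_zero] at e
      exact huz (by rw [e, zero_smul, map_zero])
    · exact huz e
  obtain ⟨X, hX, hxX⟩ := exists_fl h ho hu hx hux
  obtain ⟨s, hs'⟩ : ∃ s : E, s = -B u z / (B x z * B u u) := ⟨_, rfl⟩
  obtain ⟨c, hc⟩ := hs.inv.exists_trace_eq (a := -B (s • u) (s • u))
    (by rw [map_neg, hs.norm_fixed])
  obtain ⟨k, hk, he⟩ := hs.exists_isEich (c := c) (w := s • u) hx
    (by rw [smul_right, hs.flip_zero hux, mul_zero]) (by rw [hc, neg_add_cancel])
  have ki : k ∈ isom B := sisom_le_isom (uniRad_le_sisom hk)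
  have kK : (⟨k, ki⟩ : isom B) ∈ K := hK X hX ⟨fun y hy => by
      change k y = y
      rw [he.apply_of_perp (hX.ti x hxX y hy), smul_left, hX.orth y hy, mul_zero, zero_smul,
        sub_zero], fun v hv => by
      change k v - v ∈ X
      rw [he.apply_of_perp (hv x hxX), sub_sub_cancel_left]
      exact X.neg_mem (X.smul_mem _ hxX)⟩
  have kz : B u (k z) = 0 := by
    rw [he z]
    simp only [map_add, map_sub, smul_right, hux, mul_zero, hs']
    field_simp
    ring
  intro g hg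
  have : (⟨k, ki⟩ : isom B) * g * (⟨k, ki⟩ : isom B)⁻¹ ∈ K := by
    refine base (k z) (by rw [mem_isom.1 ki, hz]) kz (mem_CX_span.2 fun v hv => ?_)
    change k (g.1 (k⁻¹ v)) = v
    rw [mem_CX_span.1 hg _ (by rw [← isom_adj ki, hv]), apply_inv_apply]
  simpa [mul_assoc] using mul_mem (mul_mem (inv_mem kK) this) kK

end Cfsg.Agent.H5.UwG
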